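import Cfsg.Agent.H280.L16.Norm

/-!
# S5916: alternating tensors of families vanish (helper280)

`act M β` : the action of a `2 × 2` matrix on both indices of `β`. An alternating array with one, two or three pairs of
indices of types `M, N, R` is zero if there are no fixed vectors and no smaller families (`alt1`, `alt2`, `alt3`).
-/

set_option autoImplicit false
set_option linter.unusedSectionVars false

namespace Cfsg.Agent.H280.L16

open Matrix

section Act

variable {k : Type*} [Field k] {W : Type*} [AddCommGroup W] [Module k W]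

/-- the action on both indices -/
def act (M : Matrix (Fin 2) (Fin 2) k) (β : Fin 2 → Fin 2 → W) (a a' : Fin 2) : W :=
  ∑ b, ∑ b', (M b a * M b' a') • β b b'

theorem act_zero (M : Matrix (Fin 2) (Fin 2) k) {β : Fin 2 → Fin 2 → W} (h : ∀ b b', β b b' = 0) (a a' : Fin 2) :
    act M β a a' = 0 := by
  unfold act
  simp [h]

theorem act_add (M : Matrix (Fin 2) (Fin 2) k) (β β' : Fin 2 → Fin 2 → W) (a a' : Fin 2) :
    act M (fun b b' => β b b' + β' b b') a a' = act M β a a' + act M β' a a' := by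
  unfold act
  simp only [smul_add, Finset.sum_add_distrib]

theorem act_comm (M N : Matrix (Fin 2) (Fin 2) k) (X : Fin 2 → Fin 2 → Fin 2 → Fin 2 → W) (a a' c c' : Fin 2) :
    act M (fun b b' => act N (fun d d' => X b b' d d') c c') a a' =
      act N (fun d d' => act M (fun b b' => X b b' d d') a a') c c' := by
  unfold act
  simp only [Fin.sum_univ_two, smul_add, smul_smul]
  have h1 : ∀ x y z w : k, x * y * (z * w) = z * w * (x * y) := fun x y z w => by ring
  simp only [h1 (M _ _)]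
  abel

variable [CharP k 2]

theorem add_self_W (k : Type*) [Field k] [CharP k 2] {W : Type*} [AddCommGroup W] [Module k W] (x : W) : x + x = 0 := by
  have h2 : (2 : k) = 0 := by
    have := CharP.cast_eq_zero k 2
    exact_mod_cast this
  rw [← two_smul k, h2, zero_smul]

theorem eq_of_add_W (k : Type*) [Field k] [CharP k 2] {W : Type*} [AddCommGroup W] [Module k W] {x z : W}
    (h : x + z = 0) : x = z := by
  have h1 := add_self_W k z
  rw [← h1] at h
  exact add_right_cancel h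

theorem act_C (M : Matrix (Fin 2) (Fin 2) k) (hM : M.det = 1) (β : Fin 2 → Fin 2 → W) :
    act M β 0 1 + act M β 1 0 = β 0 1 + β 1 0 := by
  rw [Matrix.det_fin_two] at hM
  have h2 : (2 : k) = 0 := by
    have := CharP.cast_eq_zero k 2
    exact_mod_cast this
  unfold act
  simp only [Fin.sum_univ_two]
  have e0 : (M 0 0 * M 0 1) • β 0 0 + (M 0 1 * M 0 0) • β 0 0 = 0 := by
    rw [mul_comm (M 0 1)]; exact add_self_W k _
  have e1 : (M 1 0 * M 1 1) • β 1 1 + (M 1 1 * M 1 0) • β 1 1 = 0 := by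
    rw [mul_comm (M 1 1)]; exact add_self_W k _
  have e2 : (M 0 0 * M 1 1) • β 0 1 + (M 0 1 * M 1 0) • β 0 1 = β 0 1 := by
    rw [← add_smul, show M 0 0 * M 1 1 + M 0 1 * M 1 0 = 1 by linear_combination hM + (M 0 1 * M 1 0) * h2, one_smul]
  have e3 : (M 1 0 * M 0 1) • β 1 0 + (M 1 1 * M 0 0) • β 1 0 = β 1 0 := by
    rw [← add_smul, show M 1 0 * M 0 1 + M 1 1 * M 0 0 = 1 by linear_combination hM + (M 0 1 * M 1 0) * h2, one_smul]
  calc _ = ((M 0 0 * M 0 1) • β 0 0 + (M 0 1 * M 0 0) • β 0 0) + ((M 1 0 * M 1 1) • β 1 1 + (M 1 1 * M 1 0) • β 1 1) +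
        ((M 0 0 * M 1 1) • β 0 1 + (M 0 1 * M 1 0) • β 0 1) + ((M 1 0 * M 0 1) • β 1 0 + (M 1 1 * M 0 0) • β 1 0) := by abel
    _ = _ := by rw [e0, e1, e2, e3, zero_add, zero_add]

theorem act_D (M : Matrix (Fin 2) (Fin 2) k) {β : Fin 2 → Fin 2 → W} (h : β 0 1 = β 1 0) (a : Fin 2) :
    act M β a a = ∑ b, (M b a) ^ 2 • β b b := by
  unfold act
  simp only [Fin.sum_univ_two]
  have e1 : (M 0 a * M 1 a) • β 0 1 + (M 1 a * M 0 a) • β 1 0 = 0 := by
    rw [h, mul_comm (M 1 a)]; exact add_self_W k _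
  calc _ = (M 0 a * M 0 a) • β 0 0 + (M 1 a * M 1 a) • β 1 1 + ((M 0 a * M 1 a) • β 0 1 + (M 1 a * M 0 a) • β 1 0) := by
        abel
    _ = _ := by rw [e1, add_zero, pow_two, pow_two]

theorem act_E (M : Matrix (Fin 2) (Fin 2) k) (hM : M.det = 1) {β : Fin 2 → Fin 2 → W} (h0 : ∀ b, β b b = 0)
    (h : β 0 1 = β 1 0) : act M β 0 1 = β 0 1 := by
  rw [Matrix.det_fin_two] at hM
  have h2 : (2 : k) = 0 := by
    have := CharP.cast_eq_zero k 2
    exact_mod_cast this
  unfold act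
  simp only [Fin.sum_univ_two]
  rw [h0, h0, ← h, smul_zero, smul_zero, zero_add, add_zero, ← add_smul,
    show M 0 0 * M 1 1 + M 1 0 * M 0 1 = 1 by linear_combination hM + (M 0 1 * M 1 0) * h2, one_smul]

end Act

section Alt

variable {k : Type*} [Field k] [CharP k 2] {G : Type*} [Group G] {V : Type*} [AddCommGroup V] [Module k V]
  {ρ : Representation k G V}

/-- the cases of an index -/
theorem fin2 (a a' : Fin 2) : a = a' ∨ (a = 0 ∧ a' = 1) ∨ (a = 1 ∧ a' = 0) := by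
  fin_cases a <;> fin_cases a' <;> simp

/-- **one pair of indices** -/
theorem alt1 {M : G → Matrix (Fin 2) (Fin 2) k} (hM : ∀ g, (M g).det = 1) {K : Fin 2 → Fin 2 → V}
    (hK : ∀ g a a', ρ g (K a a') = act (M g) K a a') (hs : ∀ a a', K a a' = K a' a) (ha : ∀ a, K a a = 0)
    (hfix : ∀ v, (∀ g, ρ g v = v) → v = 0) (a a' : Fin 2) : K a a' = 0 := by
  have h1 : K 0 1 = 0 := hfix _ fun g => by rw [hK, act_E _ (hM g) ha (hs 0 1)]
  rcases fin2 a a' with rfl | ⟨rfl, rfl⟩ | ⟨rfl, rfl⟩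
  · exact ha _
  · exact h1
  · rw [hs, h1]

/-- alternating arrays with two pairs of indices -/
structure Alt2 (ρ : Representation k G V) (M N : G → Matrix (Fin 2) (Fin 2) k) (X : Fin 2 → Fin 2 → Fin 2 → Fin 2 → V) :
    Prop where
  act : ∀ g a a' c c', ρ g (X a a' c c') = act (M g) (fun b b' => act (N g) (fun d d' => X b b' d d') c c') a a'
  sym : ∀ a a' c c', X a a' c c' = X a' a c' c
  alt : ∀ a c, X a a c c = 0

theorem Alt2.swap {M N : G → Matrix (Fin 2) (Fin 2) k} {X : Fin 2 → Fin 2 → Fin 2 → Fin 2 → V} (h : Alt2 ρ M N X) :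
    Alt2 ρ N M fun c c' a a' => X a a' c c' where
  act g c c' a a' := by rw [h.act, act_comm]
  sym c c' a a' := h.sym _ _ _ _
  alt c a := h.alt _ _

/-- no smaller families -/
structure No2 (ρ : Representation k G V) (M N : G → Matrix (Fin 2) (Fin 2) k) : Prop where
  fix : ∀ v, (∀ g, ρ g v = v) → v = 0
  m : ∀ w : Fin 2 → V, (∀ g a, ρ g (w a) = ∑ b, (M g b a) ^ 2 • w b) → ∀ a, w a = 0
  n : ∀ w : Fin 2 → V, (∀ g a, ρ g (w a) = ∑ b, (N g b a) ^ 2 • w b) → ∀ a, w a = 0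
  dm : ∀ g, (M g).det = 1
  dn : ∀ g, (N g).det = 1

theorem No2.swap {M N : G → Matrix (Fin 2) (Fin 2) k} (h : No2 ρ M N) : No2 ρ N M := ⟨h.fix, h.n, h.m, h.dn, h.dm⟩

/-- the contraction of the second pair: only fixed vectors are needed -/
theorem Alt2.contract {M N : G → Matrix (Fin 2) (Fin 2) k} {X : Fin 2 → Fin 2 → Fin 2 → Fin 2 → V} (h : Alt2 ρ M N X)
    (hM : ∀ g, (M g).det = 1) (hN : ∀ g, (N g).det = 1) (hfix : ∀ v, (∀ g, ρ g v = v) → v = 0) (a a' : Fin 2) :
    X a a' 0 1 + X a a' 1 0 = 0 := by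
  refine alt1 (K := fun a a' => X a a' 0 1 + X a a' 1 0) hM (fun g a a' => ?_) (fun a a' => ?_) (fun a => ?_) hfix a a'
  · rw [map_add, h.act, h.act, ← act_add]
    unfold L16.act
    refine Finset.sum_congr rfl fun b _ => Finset.sum_congr rfl fun b' _ => ?_
    congr 1
    exact act_C (N g) (hN g) (fun d d' => X b b' d d')
  · show X a a' 0 1 + X a a' 1 0 = X a' a 0 1 + X a' a 1 0
    rw [h.sym a' a 0 1, h.sym a' a 1 0, add_comm]
  · show X a a 0 1 + X a a 1 0 = 0
    rw [h.sym a a 1 0]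
    exact add_self_W k _

/-- the diagonal of the first pair vanishes -/
theorem Alt2.diag {M N : G → Matrix (Fin 2) (Fin 2) k} {X : Fin 2 → Fin 2 → Fin 2 → Fin 2 → V} (h : Alt2 ρ M N X)
    (no : No2 ρ M N) (a c c' : Fin 2) : X a a c c' = 0 := by
  have s2 : ∀ a a', X a a' 0 1 = X a a' 1 0 := fun a a' => eq_of_add_W k (h.contract no.dm no.dn no.fix a a')
  have s1 : ∀ c c', X 0 1 c c' = X 1 0 c c' := fun c c' => eq_of_add_W k (h.swap.contract no.dn no.dm no.fix c c')
  have h1 : ∀ a, X a a 0 1 = 0 := by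
    refine no.m (fun a => X a a 0 1) fun g a => ?_
    rw [h.act, act_D (M g) (β := fun b b' => L16.act (N g) (fun d d' => X b b' d d') 0 1)]
    · refine Finset.sum_congr rfl fun b _ => ?_
      rw [act_E (N g) (no.dn g) (β := fun d d' => X b b d d') (fun d => h.alt b d) (s2 b b)]
    · show L16.act (N g) (X 0 1) 0 1 = L16.act (N g) (X 1 0) 0 1
      rw [show X 0 1 = X 1 0 from funext fun c => funext fun c' => s1 c c']
  rcases fin2 c c' with rfl | ⟨rfl, rfl⟩ | ⟨rfl, rfl⟩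
  · exact h.alt _ _
  · exact h1 a
  · rw [← s2, h1]

/-- **two pairs of indices** -/
theorem Alt2.zero {M N : G → Matrix (Fin 2) (Fin 2) k} {X : Fin 2 → Fin 2 → Fin 2 → Fin 2 → V} (h : Alt2 ρ M N X)
    (no : No2 ρ M N) (a a' c c' : Fin 2) : X a a' c c' = 0 := by
  have s2 : ∀ a a', X a a' 0 1 = X a a' 1 0 := fun a a' => eq_of_add_W k (h.contract no.dm no.dn no.fix a a')
  have s1 : ∀ c c', X 0 1 c c' = X 1 0 c c' := fun c c' => eq_of_add_W k (h.swap.contract no.dn no.dm no.fix c c')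
  have d1 := h.diag no
  have d2 : ∀ a a' c, X a a' c c = 0 := fun a a' c => h.swap.diag no.swap c a a'
  have h1 : X 0 1 0 1 = 0 := by
    refine no.fix _ fun g => ?_
    rw [h.act, act_E (M g) (no.dm g) (β := fun b b' => L16.act (N g) (fun d d' => X b b' d d') 0 1)]
    · exact act_E (N g) (no.dn g) (β := fun d d' => X 0 1 d d') (fun d => d2 0 1 d) (s2 0 1)
    · intro b
      exact act_zero _ (fun d d' => d1 b d d') _ _
    · show L16.act (N g) (X 0 1) 0 1 = L16.act (N g) (X 1 0) 0 1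
      rw [show X 0 1 = X 1 0 from funext fun c => funext fun c' => s1 c c']
  rcases fin2 a a' with rfl | ⟨rfl, rfl⟩ | ⟨rfl, rfl⟩
  · exact d1 _ _ _
  · rcases fin2 c c' with rfl | ⟨rfl, rfl⟩ | ⟨rfl, rfl⟩
    · exact d2 _ _ _
    · exact h1
    · rw [← s2, h1]
  · rw [← s1]
    rcases fin2 c c' with rfl | ⟨rfl, rfl⟩ | ⟨rfl, rfl⟩
    · exact d2 _ _ _
    · exact h1
    · rw [← s2, h1]

/-- alternating arrays with three pairs of indices -/
structure Alt3 (ρ : Representation k G V) (M N R : G → Matrix (Fin 2) (Fin 2) k)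
    (X : Fin 2 → Fin 2 → Fin 2 → Fin 2 → Fin 2 → Fin 2 → V) : Prop where
  act : ∀ g a a' c c' e e', ρ g (X a a' c c' e e') = act (M g) (fun b b' => act (N g) (fun d d' =>
    act (R g) (fun f f' => X b b' d d' f f') e e') c c') a a'
  sym : ∀ a a' c c' e e', X a a' c c' e e' = X a' a c' c e' e
  alt : ∀ a c e, X a a c c e e = 0

/-- no smaller families -/
structure No3 (ρ : Representation k G V) (M N R : G → Matrix (Fin 2) (Fin 2) k) : Prop where
  fix : ∀ v, (∀ g, ρ g v = v) → v = 0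
  m : ∀ w : Fin 2 → V, (∀ g a, ρ g (w a) = ∑ b, (M g b a) ^ 2 • w b) → ∀ a, w a = 0
  n : ∀ w : Fin 2 → V, (∀ g a, ρ g (w a) = ∑ b, (N g b a) ^ 2 • w b) → ∀ a, w a = 0
  r : ∀ w : Fin 2 → V, (∀ g a, ρ g (w a) = ∑ b, (R g b a) ^ 2 • w b) → ∀ a, w a = 0
  mn : ∀ w : Fin 2 → Fin 2 → V, (∀ g a c, ρ g (w a c) = ∑ b, ∑ d, ((M g b a) ^ 2 * (N g d c) ^ 2) • w b d) →
    ∀ a c, w a c = 0
  mr : ∀ w : Fin 2 → Fin 2 → V, (∀ g a c, ρ g (w a c) = ∑ b, ∑ d, ((M g b a) ^ 2 * (R g d c) ^ 2) • w b d) →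
    ∀ a c, w a c = 0
  nr : ∀ w : Fin 2 → Fin 2 → V, (∀ g a c, ρ g (w a c) = ∑ b, ∑ d, ((N g b a) ^ 2 * (R g d c) ^ 2) • w b d) →
    ∀ a c, w a c = 0
  dm : ∀ g, (M g).det = 1
  dn : ∀ g, (N g).det = 1
  dr : ∀ g, (R g).det = 1

theorem flip_no {M N : G → Matrix (Fin 2) (Fin 2) k}
    (h : ∀ w : Fin 2 → Fin 2 → V, (∀ g a c, ρ g (w a c) = ∑ b, ∑ d, ((M g b a) ^ 2 * (N g d c) ^ 2) • w b d) →
      ∀ a c, w a c = 0) (w : Fin 2 → Fin 2 → V)
    (hw : ∀ g a c, ρ g (w a c) = ∑ b, ∑ d, ((N g b a) ^ 2 * (M g d c) ^ 2) • w b d) (a c : Fin 2) : w a c = 0 := by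
  refine h (fun a c => w c a) (fun g a c => ?_) c a
  rw [hw, Finset.sum_comm]
  exact Finset.sum_congr rfl fun b _ => Finset.sum_congr rfl fun d _ => by rw [mul_comm]

theorem No3.swap12 {M N R : G → Matrix (Fin 2) (Fin 2) k} (h : No3 ρ M N R) : No3 ρ N M R :=
  ⟨h.fix, h.n, h.m, h.r, flip_no h.mn, h.nr, h.mr, h.dn, h.dm, h.dr⟩

theorem No3.swap23 {M N R : G → Matrix (Fin 2) (Fin 2) k} (h : No3 ρ M N R) : No3 ρ M R N :=
  ⟨h.fix, h.m, h.r, h.n, h.mr, h.mn, flip_no h.nr, h.dm, h.dr, h.dn⟩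

section

variable {M N R : G → Matrix (Fin 2) (Fin 2) k} {X : Fin 2 → Fin 2 → Fin 2 → Fin 2 → Fin 2 → Fin 2 → V}

theorem Alt3.swap12 (h : Alt3 ρ M N R X) : Alt3 ρ N M R fun c c' a a' e e' => X a a' c c' e e' where
  act g c c' a a' e e' := by rw [h.act, act_comm]
  sym c c' a a' e e' := h.sym _ _ _ _ _ _
  alt c a e := h.alt _ _ _

theorem Alt3.swap23 (h : Alt3 ρ M N R X) : Alt3 ρ M R N fun a a' e e' c c' => X a a' c c' e e' where
  act g a a' e e' c c' := by
    rw [h.act]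
    unfold L16.act
    refine Finset.sum_congr rfl fun b _ => Finset.sum_congr rfl fun b' _ => ?_
    congr 1
    exact act_comm (N g) (R g) (fun d d' f f' => X b b' d d' f f') c c' e e'
  sym a a' e e' c c' := h.sym _ _ _ _ _ _
  alt a e c := h.alt _ _ _

/-- symmetric in the third pair -/
theorem Alt3.s3 (h : Alt3 ρ M N R X) (no : No3 ρ M N R) (a a' c c' : Fin 2) : X a a' c c' 0 1 = X a a' c c' 1 0 := by
  apply eq_of_add_W k
  have h2 : Alt2 ρ M N fun a a' c c' => X a a' c c' 0 1 + X a a' c c' 1 0 := by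
    refine ⟨fun g a a' c c' => ?_, fun a a' c c' => ?_, fun a c => ?_⟩
    · rw [map_add, h.act, h.act, ← act_add]
      unfold L16.act
      refine Finset.sum_congr rfl fun b _ => Finset.sum_congr rfl fun b' _ => ?_
      congr 1
      show L16.act (N g) (fun d d' => L16.act (R g) (fun f f' => X b b' d d' f f') 0 1) c c' +
        L16.act (N g) (fun d d' => L16.act (R g) (fun f f' => X b b' d d' f f') 1 0) c c' =
        L16.act (N g) (fun d d' => X b b' d d' 0 1 + X b b' d d' 1 0) c c'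
      rw [← act_add]
      unfold L16.act
      refine Finset.sum_congr rfl fun d _ => Finset.sum_congr rfl fun d' _ => ?_
      congr 1
      exact act_C (R g) (no.dr g) (fun f f' => X b b' d d' f f')
    · show X a a' c c' 0 1 + X a a' c c' 1 0 = X a' a c' c 0 1 + X a' a c' c 1 0
      rw [h.sym a' a c' c 0 1, h.sym a' a c' c 1 0, add_comm]
    · show X a a c c 0 1 + X a a c c 1 0 = 0
      rw [h.sym a a c c 1 0]
      exact add_self_W k _
  exact h2.zero ⟨no.fix, no.m, no.n, no.dm, no.dn⟩ a a' c c'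

theorem Alt3.s2 (h : Alt3 ρ M N R X) (no : No3 ρ M N R) (a a' e e' : Fin 2) : X a a' 0 1 e e' = X a a' 1 0 e e' :=
  h.swap23.s3 no.swap23 a a' e e'

theorem Alt3.s1 (h : Alt3 ρ M N R X) (no : No3 ρ M N R) (c c' e e' : Fin 2) : X 0 1 c c' e e' = X 1 0 c c' e e' :=
  h.swap12.s2 no.swap12 c c' e e'

/-- the diagonal of the first two pairs -/
theorem Alt3.d12 (h : Alt3 ρ M N R X) (no : No3 ρ M N R) (a c e e' : Fin 2) : X a a c c e e' = 0 := by
  have s3 := h.s3 no
  have h1 : ∀ a c, X a a c c 0 1 = 0 := by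
    refine no.mn (fun a c => X a a c c 0 1) fun g a c => ?_
    rw [h.act, act_D (M g) (β := fun b b' => L16.act (N g) (fun d d' =>
      L16.act (R g) (fun f f' => X b b' d d' f f') 0 1) c c)]
    · refine Finset.sum_congr rfl fun b _ => ?_
      rw [act_D (N g) (β := fun d d' => L16.act (R g) (fun f f' => X b b d d' f f') 0 1), Finset.smul_sum]
      · refine Finset.sum_congr rfl fun d _ => ?_
        rw [act_E (R g) (no.dr g) (β := fun f f' => X b b d d f f') (fun f => h.alt b d f) (s3 b b d d), smul_smul]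
      · show L16.act (R g) (X b b 0 1) 0 1 = L16.act (R g) (X b b 1 0) 0 1
        rw [show X b b 0 1 = X b b 1 0 from funext fun f => funext fun f' => h.s2 no b b f f']
    · have e1 : X 0 1 = X 1 0 := funext fun d => funext fun d' => funext fun f => funext fun f' => h.s1 no d d' f f'
      show L16.act (N g) (fun d d' => L16.act (R g) (X 0 1 d d') 0 1) c c =
        L16.act (N g) (fun d d' => L16.act (R g) (X 1 0 d d') 0 1) c c
      rw [e1]
  rcases fin2 e e' with rfl | ⟨rfl, rfl⟩ | ⟨rfl, rfl⟩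
  · exact h.alt _ _ _
  · exact h1 a c
  · rw [← s3, h1]

theorem Alt3.d13 (h : Alt3 ρ M N R X) (no : No3 ρ M N R) (a c c' e : Fin 2) : X a a c c' e e = 0 :=
  h.swap23.d12 no.swap23 a e c c'

theorem Alt3.d23 (h : Alt3 ρ M N R X) (no : No3 ρ M N R) (a a' c e : Fin 2) : X a a' c c e e = 0 :=
  h.swap12.d13 no.swap12 c a a' e

/-- the diagonal of the first pair -/
theorem Alt3.d1 (h : Alt3 ρ M N R X) (no : No3 ρ M N R) (a c c' e e' : Fin 2) : X a a c c' e e' = 0 := by
  have s3 := h.s3 no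
  have s2 := h.s2 no
  have h1 : ∀ a, X a a 0 1 0 1 = 0 := by
    refine no.m (fun a => X a a 0 1 0 1) fun g a => ?_
    rw [h.act, act_D (M g) (β := fun b b' => L16.act (N g) (fun d d' =>
      L16.act (R g) (fun f f' => X b b' d d' f f') 0 1) 0 1)]
    · refine Finset.sum_congr rfl fun b _ => ?_
      rw [act_E (N g) (no.dn g) (β := fun d d' => L16.act (R g) (fun f f' => X b b d d' f f') 0 1)]
      · rw [act_E (R g) (no.dr g) (β := fun f f' => X b b 0 1 f f') (fun f => h.d13 no b 0 1 f) (s3 b b 0 1)]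
      · intro d
        exact act_zero _ (fun f f' => h.d12 no b d f f') _ _
      · show L16.act (R g) (X b b 0 1) 0 1 = L16.act (R g) (X b b 1 0) 0 1
        rw [show X b b 0 1 = X b b 1 0 from funext fun f => funext fun f' => s2 b b f f']
    · have e1 : X 0 1 = X 1 0 := funext fun d => funext fun d' => funext fun f => funext fun f' => h.s1 no d d' f f'
      show L16.act (N g) (fun d d' => L16.act (R g) (X 0 1 d d') 0 1) 0 1 =
        L16.act (N g) (fun d d' => L16.act (R g) (X 1 0 d d') 0 1) 0 1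
      rw [e1]
  rcases fin2 c c' with rfl | ⟨rfl, rfl⟩ | ⟨rfl, rfl⟩
  · exact h.d12 no _ _ _ _
  · rcases fin2 e e' with rfl | ⟨rfl, rfl⟩ | ⟨rfl, rfl⟩
    · exact h.d13 no _ _ _ _
    · exact h1 a
    · rw [← s3, h1]
  · rw [← s2]
    rcases fin2 e e' with rfl | ⟨rfl, rfl⟩ | ⟨rfl, rfl⟩
    · exact h.d13 no _ _ _ _
    · exact h1 a
    · rw [← s3, h1]

theorem Alt3.d2 (h : Alt3 ρ M N R X) (no : No3 ρ M N R) (a a' c e e' : Fin 2) : X a a' c c e e' = 0 :=
  h.swap12.d1 no.swap12 c a a' e e'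

theorem Alt3.d3 (h : Alt3 ρ M N R X) (no : No3 ρ M N R) (a a' c c' e : Fin 2) : X a a' c c' e e = 0 :=
  h.swap23.d2 no.swap23 a a' e c c'

/-- **three pairs of indices** -/
theorem Alt3.zero (h : Alt3 ρ M N R X) (no : No3 ρ M N R) (a a' c c' e e' : Fin 2) : X a a' c c' e e' = 0 := by
  have s3 := h.s3 no
  have s2 := h.s2 no
  have s1 := h.s1 no
  have h1 : X 0 1 0 1 0 1 = 0 := by
    refine no.fix _ fun g => ?_
    rw [h.act, act_E (M g) (no.dm g) (β := fun b b' => L16.act (N g) (fun d d' =>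
      L16.act (R g) (fun f f' => X b b' d d' f f') 0 1) 0 1)]
    · rw [act_E (N g) (no.dn g) (β := fun d d' => L16.act (R g) (fun f f' => X 0 1 d d' f f') 0 1)]
      · exact act_E (R g) (no.dr g) (β := fun f f' => X 0 1 0 1 f f') (fun f => h.d3 no 0 1 0 1 f) (s3 0 1 0 1)
      · intro d
        exact act_zero _ (fun f f' => h.d2 no 0 1 d f f') _ _
      · show L16.act (R g) (X 0 1 0 1) 0 1 = L16.act (R g) (X 0 1 1 0) 0 1
        rw [show X 0 1 0 1 = X 0 1 1 0 from funext fun f => funext fun f' => s2 0 1 f f']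
    · intro b
      exact act_zero _ (fun d d' => act_zero _ (fun f f' => h.d1 no b d d' f f') _ _) _ _
    · have e1 : X 0 1 = X 1 0 := funext fun d => funext fun d' => funext fun f => funext fun f' => s1 d d' f f'
      show L16.act (N g) (fun d d' => L16.act (R g) (X 0 1 d d') 0 1) 0 1 =
        L16.act (N g) (fun d d' => L16.act (R g) (X 1 0 d d') 0 1) 0 1
      rw [e1]
  have h2 : ∀ e e', X 0 1 0 1 e e' = 0 := by
    intro e e'
    rcases fin2 e e' with rfl | ⟨rfl, rfl⟩ | ⟨rfl, rfl⟩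
    · exact h.d3 no _ _ _ _ _
    · exact h1
    · rw [← s3, h1]
  have h3 : ∀ c c' e e', X 0 1 c c' e e' = 0 := by
    intro c c' e e'
    rcases fin2 c c' with rfl | ⟨rfl, rfl⟩ | ⟨rfl, rfl⟩
    · exact h.d2 no _ _ _ _ _
    · exact h2 _ _
    · rw [← s2, h2]
  rcases fin2 a a' with rfl | ⟨rfl, rfl⟩ | ⟨rfl, rfl⟩
  · exact h.d1 no _ _ _ _ _
  · exact h3 _ _ _ _
  · rw [← s1, h3]

end

end Alt

end Cfsg.Agent.H280.L16
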