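import Cfsg.Agent.H280.L16.Alt

/-!
# S5916: the bracket of families (helper280)

`br` bilinear, alternating, invariant. `ss1`, `ss2`, `ss3`: the vectors of a family commute if there are no smaller
families. `half`: the half invariants.
-/

set_option autoImplicit false
set_option linter.unusedSectionVars false

namespace Cfsg.Agent.H280.L16

open Matrix

variable {k : Type*} [Field k] [CharP k 2] {F : Type*} [Field F]
  {P : SpecialLinearGroup (Fin 2) F →* Matrix (Fin 2) (Fin 2) k}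
  {V : Type*} [AddCommGroup V] [Module k V] {ρ : Representation k (SpecialLinearGroup (Fin 2) F) V}

/-- an invariant alternating bracket -/
structure Brk (ρ : Representation k (SpecialLinearGroup (Fin 2) F) V) (br : V →ₗ[k] V →ₗ[k] V) : Prop where
  inv : ∀ g u v, ρ g (br u v) = br (ρ g u) (ρ g v)
  alt : ∀ v, br v v = 0

variable {br : V →ₗ[k] V →ₗ[k] V}

theorem Brk.comm (h : Brk ρ br) (u v : V) : br u v = br v u := by
  have h1 := h.alt (u + v)
  simp only [map_add, LinearMap.add_apply, h.alt, zero_add, add_zero] at h1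
  rw [add_comm] at h1
  exact eq_of_add_W k h1

variable (P) in
/-- the matrix of exponent `i` -/
def PM (i : ℕ) (g : SpecialLinearGroup (Fin 2) F) : Matrix (Fin 2) (Fin 2) k := Matrix.of fun a b => (P g a b) ^ 2 ^ i

theorem PM_apply (i : ℕ) (g : SpecialLinearGroup (Fin 2) F) (a b : Fin 2) : PM P i g a b = (P g a b) ^ 2 ^ i := rfl

theorem det_PM (hdet : ∀ s, P s 0 0 * P s 1 1 - P s 0 1 * P s 1 0 = 1) (i : ℕ) (g : SpecialLinearGroup (Fin 2) F) :
    (PM P i g).det = 1 := by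
  rw [Matrix.det_fin_two, PM_apply, PM_apply, PM_apply, PM_apply, ← mul_pow, ← mul_pow, ← sub_pow_char_pow, hdet,
    one_pow]

theorem PM_sq (i : ℕ) (g : SpecialLinearGroup (Fin 2) F) (a b : Fin 2) : (PM P i g a b) ^ 2 = (P g a b) ^ 2 ^ (i + 1) := by
  rw [PM_apply, ← pow_mul, ← pow_succ]

/-! ### one index -/

theorem act_fam1 (h : Brk ρ br) {i : ℕ} {w : Fin 2 → V} (hw : Fam1 P ρ i w) (g : SpecialLinearGroup (Fin 2) F)
    (a a' : Fin 2) : ρ g (br (w a) (w a')) = act (PM P i g) (fun b b' => br (w b) (w b')) a a' := by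
  rw [h.inv, hw, hw]
  unfold act
  simp only [map_sum, LinearMap.sum_apply, map_smul, LinearMap.smul_apply, PM_apply, smul_smul, Finset.smul_sum]
  rw [Finset.sum_comm]
  refine Finset.sum_congr rfl fun b _ => Finset.sum_congr rfl fun b' _ => ?_
  rw [mul_comm]

variable (hdet : ∀ s, P s 0 0 * P s 1 1 - P s 0 1 * P s 1 0 = 1) (hfix : ∀ v, (∀ g, ρ g v = v) → v = 0)

include hdet hfix

theorem ss1 (h : Brk ρ br) {i : ℕ} {w : Fin 2 → V} (hw : Fam1 P ρ i w) (a a' : Fin 2) : br (w a) (w a') = 0 :=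
  alt1 (K := fun a a' => br (w a) (w a')) (det_PM hdet i) (fun g a a' => act_fam1 h hw g a a')
    (fun _ _ => h.comm _ _) (fun _ => h.alt _) hfix a a'

/-! ### two indices -/

omit hdet hfix in
theorem alt_fam2 (h : Brk ρ br) {i j : ℕ} {w : Fin 2 → Fin 2 → V} (hw : Fam2 P ρ i j w) :
    Alt2 ρ (PM P i) (PM P j) fun a a' c c' => br (w a c) (w a' c') where
  act g a a' c c' := by
    rw [h.inv, hw, hw]
    unfold act
    simp only [map_sum, LinearMap.sum_apply, map_smul, LinearMap.smul_apply, PM_apply, smul_smul, Finset.smul_sum]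
    have e : ∀ T : Fin 2 → Fin 2 → Fin 2 → Fin 2 → V, ∑ b, ∑ d, ∑ b', ∑ d', T b d b' d' =
        ∑ b', ∑ b, ∑ d', ∑ d, T b d b' d' := by
      intro T
      simp only [Fin.sum_univ_two]
      abel
    rw [e]
    refine Finset.sum_congr rfl fun b _ => Finset.sum_congr rfl fun b' _ => Finset.sum_congr rfl fun d _ =>
      Finset.sum_congr rfl fun d' _ => ?_
    congr 1
    ring
  sym a a' c c' := h.comm _ _
  alt a c := h.alt _

theorem ss2 (h : Brk ρ br) {i j : ℕ} (n1 : ∀ w, Fam1 P ρ (i + 1) w → w = 0) (n2 : ∀ w, Fam1 P ρ (j + 1) w → w = 0)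
    {w : Fin 2 → Fin 2 → V} (hw : Fam2 P ρ i j w) (a c a' c' : Fin 2) : br (w a c) (w a' c') = 0 := by
  refine (alt_fam2 h hw).zero ⟨hfix, fun w hw => ?_, fun w hw => ?_, det_PM hdet i, det_PM hdet j⟩ a a' c c'
  · exact congrFun (n1 w fun g a => by rw [hw]; simp only [PM_sq])
  · exact congrFun (n2 w fun g a => by rw [hw]; simp only [PM_sq])

/-- **the half invariant** -/
theorem half2 (h : Brk ρ br) {i j : ℕ} {z : Fin 2 → Fin 2 → V} (hz : Fam2 P ρ i j z) :
    br (z 0 0) (z 1 1) + br (z 0 1) (z 1 0) = 0 :=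
  (alt_fam2 h hz).contract (det_PM hdet i) (det_PM hdet j) hfix 0 1

/-! ### three indices -/

omit hdet hfix in
theorem alt_fam3 (h : Brk ρ br) {i j l : ℕ} {w : Fin 2 → Fin 2 → Fin 2 → V} (hw : Fam3 P ρ i j l w) :
    Alt3 ρ (PM P i) (PM P j) (PM P l) fun a a' c c' e e' => br (w a c e) (w a' c' e') where
  act g a a' c c' e e' := by
    rw [h.inv, hw, hw]
    unfold act
    simp only [map_sum, LinearMap.sum_apply, map_smul, LinearMap.smul_apply, PM_apply, smul_smul, Finset.smul_sum]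
    have e0 : ∀ T : Fin 2 → Fin 2 → Fin 2 → Fin 2 → Fin 2 → Fin 2 → V,
        ∑ b, ∑ d, ∑ f, ∑ b', ∑ d', ∑ f', T b d f b' d' f' =
        ∑ b', ∑ b, ∑ d', ∑ d, ∑ f', ∑ f, T b d f b' d' f' := by
      intro T
      simp only [Fin.sum_univ_two]
      abel
    rw [e0]
    refine Finset.sum_congr rfl fun b _ => Finset.sum_congr rfl fun b' _ => Finset.sum_congr rfl fun d _ =>
      Finset.sum_congr rfl fun d' _ => Finset.sum_congr rfl fun f _ => Finset.sum_congr rfl fun f' _ => ?_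
    congr 1
    ring
  sym a a' c c' e e' := h.comm _ _
  alt a c e := h.alt _

theorem ss3 (h : Brk ρ br) {i j l : ℕ} (n1 : ∀ m w, Fam1 P ρ m w → w = 0)
    (n2 : ∀ w, Fam2 P ρ (i + 1) (j + 1) w → w = 0) (n3 : ∀ w, Fam2 P ρ (i + 1) (l + 1) w → w = 0)
    (n4 : ∀ w, Fam2 P ρ (j + 1) (l + 1) w → w = 0) {w : Fin 2 → Fin 2 → Fin 2 → V} (hw : Fam3 P ρ i j l w)
    (a c e a' c' e' : Fin 2) : br (w a c e) (w a' c' e') = 0 := by
  have k1 : ∀ m, ∀ w : Fin 2 → V, (∀ g a, ρ g (w a) = ∑ b, (PM P m g b a) ^ 2 • w b) → ∀ a, w a = 0 := by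
    intro m w hw
    exact congrFun (n1 (m + 1) w fun g a => by rw [hw]; simp only [PM_sq])
  have k2 : ∀ m n, (∀ w, Fam2 P ρ (m + 1) (n + 1) w → w = 0) → ∀ w : Fin 2 → Fin 2 → V,
      (∀ g a c, ρ g (w a c) = ∑ b, ∑ d, ((PM P m g b a) ^ 2 * (PM P n g d c) ^ 2) • w b d) → ∀ a c, w a c = 0 := by
    intro m n hn w hw a c
    exact congrFun (congrFun (hn w fun g a c => by rw [hw]; simp only [PM_sq]) a) c
  exact (alt_fam3 h hw).zero ⟨hfix, k1 i, k1 j, k1 l, k2 i j n2, k2 i l n3, k2 j l n4, det_PM hdet i, det_PM hdet j,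
    det_PM hdet l⟩ a a' c c' e e'

/-! ### the half invariant of a family with many indices -/

omit hdet hfix in
/-- the contraction property of `PM` -/
theorem PM_contr (hdet : ∀ s, P s 0 0 * P s 1 1 - P s 0 1 * P s 1 0 = 1) (i : ℕ) (g : SpecialLinearGroup (Fin 2) F)
    (y u : Fin 2) : ∑ x, PM P i g y x * PM P i g u (1 - x) = if u = 1 - y then 1 else 0 := by
  have h1 := det_PM hdet i g
  rw [Matrix.det_fin_two] at h1
  have h2 : (2 : k) = 0 := by
    have := CharP.cast_eq_zero k 2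
    exact_mod_cast this
  rw [Fin.sum_univ_two]
  fin_cases y <;> fin_cases u
  · show PM P i g 0 0 * PM P i g 0 1 + PM P i g 0 1 * PM P i g 0 0 = 0
    linear_combination (PM P i g 0 0 * PM P i g 0 1) * h2
  · show PM P i g 0 0 * PM P i g 1 1 + PM P i g 0 1 * PM P i g 1 0 = 1
    linear_combination h1 + (PM P i g 0 1 * PM P i g 1 0) * h2
  · show PM P i g 1 0 * PM P i g 0 1 + PM P i g 1 1 * PM P i g 0 0 = 1
    linear_combination h1 + (PM P i g 0 1 * PM P i g 1 0) * h2
  · show PM P i g 1 0 * PM P i g 1 1 + PM P i g 1 1 * PM P i g 1 0 = 0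
    linear_combination (PM P i g 1 0 * PM P i g 1 1) * h2

omit hdet hfix in
/-- the general contraction -/
theorem contr {X : Type*} [Fintype X] [DecidableEq X] {σ : X → X} {N : Matrix X X k}
    (hN : ∀ y u, ∑ x, N y x * N u (σ x) = if u = σ y then 1 else 0) (f f' : X → V) (br : V →ₗ[k] V →ₗ[k] V) :
    ∑ x, br (∑ y, N y x • f y) (∑ u, N u (σ x) • f' u) = ∑ y, br (f y) (f' (σ y)) := by
  have e1 : ∀ x, br (∑ y, N y x • f y) (∑ u, N u (σ x) • f' u) = ∑ y, ∑ u, (N y x * N u (σ x)) • br (f y) (f' u) := by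
    intro x
    simp only [map_sum, LinearMap.sum_apply, map_smul, LinearMap.smul_apply, smul_smul, Finset.smul_sum]
    rw [Finset.sum_comm]
    refine Finset.sum_congr rfl fun y _ => Finset.sum_congr rfl fun u _ => ?_
    rw [mul_comm]
  rw [Finset.sum_congr rfl fun x _ => e1 x, Finset.sum_comm]
  refine Finset.sum_congr rfl fun y _ => ?_
  rw [Finset.sum_comm]
  have e2 : ∀ u, ∑ x, (N y x * N u (σ x)) • br (f y) (f' u) = if u = σ y then br (f y) (f' u) else 0 := by
    intro u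
    rw [← Finset.sum_smul, hN]
    split
    · rw [one_smul]
    · rw [zero_smul]
  rw [Finset.sum_congr rfl fun u _ => e2 u, Finset.sum_ite_eq' Finset.univ (σ y), if_pos (Finset.mem_univ _)]

/-- **the half invariant, general form** -/
theorem halfX (h : Brk ρ br) {X : Type*} [Fintype X] [DecidableEq X] {σ : X → X} (hσ : ∀ x, σ (σ x) = x)
    (hσ' : ∀ x, σ x ≠ x) {i : ℕ} {N : SpecialLinearGroup (Fin 2) F → Matrix X X k}
    (hN : ∀ g y u, ∑ x, N g y x * N g u (σ x) = if u = σ y then 1 else 0) {z : Fin 2 → X → V}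
    (hz : ∀ g a x, ρ g (z a x) = ∑ b, (P g b a) ^ 2 ^ i • ∑ y, N g y x • z b y) :
    ∑ x, br (z 0 x) (z 1 (σ x)) = 0 := by
  refine alt1 (K := fun a a' => ∑ x, br (z a x) (z a' (σ x))) (det_PM hdet i) (fun g a a' => ?_) (fun a a' => ?_)
    (fun a => ?_) hfix 0 1
  · rw [map_sum]
    have e1 : ∀ a x, ρ g (z a x) = ∑ y, N g y x • ∑ b, (P g b a) ^ 2 ^ i • z b y := by
      intro a x
      rw [hz]
      simp only [Finset.smul_sum]
      rw [Finset.sum_comm]
      refine Finset.sum_congr rfl fun y _ => Finset.sum_congr rfl fun b _ => ?_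
      rw [smul_comm]
    have e2 : ∀ x, ρ g (br (z a x) (z a' (σ x))) = br (∑ y, N g y x • ∑ b, (P g b a) ^ 2 ^ i • z b y)
        (∑ u, N g u (σ x) • ∑ b, (P g b a') ^ 2 ^ i • z b u) := by
      intro x
      rw [h.inv, e1, e1]
    rw [Finset.sum_congr rfl fun x _ => e2 x, contr (hN g)]
    unfold act
    simp only [map_sum, LinearMap.sum_apply, map_smul, LinearMap.smul_apply, PM_apply, smul_smul, Finset.smul_sum]
    rw [Finset.sum_comm]
    have e3 : ∀ T : Fin 2 → X → Fin 2 → V, ∑ b', ∑ y, ∑ b, T b' y b = ∑ b, ∑ b', ∑ y, T b' y b := by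
      intro T
      rw [Finset.sum_comm' (t' := Finset.univ) (s' := fun _ => Finset.univ) (by simp)]
      rw [Finset.sum_congr rfl fun y _ => Finset.sum_comm, Finset.sum_comm]
      refine Finset.sum_congr rfl fun b _ => ?_
      rw [Finset.sum_comm]
    rw [e3]
    refine Finset.sum_congr rfl fun b _ => Finset.sum_congr rfl fun b' _ => Finset.sum_congr rfl fun y _ => ?_
    rw [mul_comm]
  · show ∑ x, br (z a x) (z a' (σ x)) = ∑ x, br (z a' x) (z a (σ x))
    refine Fintype.sum_equiv ⟨σ, σ, hσ, hσ⟩ _ _ fun x => ?_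
    show br (z a x) (z a' (σ x)) = br (z a' (σ x)) (z a (σ (σ x)))
    rw [hσ, h.comm]
  · refine Finset.sum_involution (fun x _ => σ x) (fun x _ => ?_) (fun x _ _ => hσ' x) (fun x _ => Finset.mem_univ _)
      (fun x _ => hσ x)
    rw [hσ, h.comm (z a (σ x))]
    exact add_self_W k _

end Cfsg.Agent.H280.L16
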