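import Cfsg.Agent.H280.L16.Norm

/-!
# S5916: the rational families of type `(0, 2)` span (helper280)
-/

set_option autoImplicit false
set_option linter.unusedSectionVars false

namespace Cfsg.Agent.H280.L16

open Matrix

variable {k : Type*} [Field k] {F : Type*} [Field F] [Fintype F] {ι : F →+* k}
  {P : SpecialLinearGroup (Fin 2) F →* Matrix (Fin 2) (Fin 2) k} {y t0 : SpecialLinearGroup (Fin 2) F} {ζ : k}
  {V : Type*} [AddCommGroup V] [Module k V] {ρ : Representation k (SpecialLinearGroup (Fin 2) F) V}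

variable (P ρ) in
/-- the space of the families of type `(i, j)` -/
def FamS2 (i j : ℕ) : Submodule k (Fin 2 → Fin 2 → V) where
  carrier := {w | Fam2 P ρ i j w}
  zero_mem' := by
    intro s a c
    simp
  add_mem' := by
    intro v w hv hw s a c
    show ρ s (v a c + w a c) = ∑ b, ∑ d, _ • (v b d + w b d)
    rw [map_add, hv, hw]
    simp only [smul_add, Finset.sum_add_distrib]
  smul_mem' := by
    intro r w hw s a c
    show ρ s (r • w a c) = ∑ b, ∑ d, _ • (r • w b d)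
    rw [map_smul, hw]
    simp only [Finset.smul_sum, smul_smul, mul_comm r]

theorem mem_FamS2 {i j : ℕ} {w : Fin 2 → Fin 2 → V} : w ∈ FamS2 P ρ i j ↔ Fam2 P ρ i j w := Iff.rfl

variable {Θ : V → V}

theorem rat_fam (h : FrM ρ Θ) (D : PDat ι P y t0 ζ) {w : Fin 2 → Fin 2 → V} (hw : Fam2 P ρ 0 2 w) :
    Fam2 P ρ 0 2 fun a c => Θ (Θ (w c (1 - a))) :=
  (D.dn2'.1 (h.fam2 (h.fam2 hw))).swap

/-- **the `F²`-rational families span** -/
theorem lang02 [CharP k 2] [IsAlgClosed k] [FiniteDimensional k V] (h : FrM ρ Θ) (D : PDat ι P y t0 ζ)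
    {w : Fin 2 → Fin 2 → V} (hw : Fam2 P ρ 0 2 w) :
    w ∈ Submodule.span k {s : Fin 2 → Fin 2 → V | Fam2 P ρ 0 2 s ∧ ∀ a c, Θ (Θ (s a c)) = s (1 - c) a} := by
  let φ : ↥(FamS2 P ρ 0 2) →ₛₗ[iterateFrobenius k 2 2] ↥(FamS2 P ρ 0 2) :=
    { toFun := fun w => ⟨fun a c => Θ (Θ (w.1 c (1 - a))), rat_fam h D w.2⟩
      map_add' := fun v w => Subtype.ext (by
        funext a c
        show Θ (Θ (v.1 c (1 - a) + w.1 c (1 - a))) = Θ (Θ (v.1 c (1 - a))) + Θ (Θ (w.1 c (1 - a)))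
        rw [h.add, h.add])
      map_smul' := fun r w => Subtype.ext (by
        funext a c
        show Θ (Θ (r • w.1 c (1 - a))) = iterateFrobenius k 2 2 r • Θ (Θ (w.1 c (1 - a)))
        rw [h.smul, h.smul, iterateFrobenius_def, ← pow_mul]
        norm_num) }
  have hφ : Function.Injective φ := by
    intro v w hvw
    apply Subtype.ext
    funext a c
    have h1 := congrFun (congrFun (congrArg Subtype.val hvw) (1 - c)) a
    have h2 : Θ (Θ (v.1 a (1 - (1 - c)))) = Θ (Θ (w.1 a (1 - (1 - c)))) := h1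
    rw [sub_sub_cancel] at h2
    exact h.inj (h.inj h2)
  have h3 := Cfsg.Agent.H192.span_fixed 2 2 (by norm_num) φ hφ
  have h4 : (⟨w, hw⟩ : ↥(FamS2 P ρ 0 2)) ∈ Submodule.span k {w | φ w = w} := by rw [h3]; exact Submodule.mem_top
  have h5 := Submodule.mem_map_of_mem (f := (FamS2 P ρ 0 2).subtype) h4
  rw [Submodule.map_span] at h5
  refine Submodule.span_mono ?_ h5
  rintro _ ⟨s, hs, rfl⟩
  refine ⟨s.2, fun a c => ?_⟩
  have h6 := congrFun (congrFun (congrArg Subtype.val hs) (1 - c)) a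
  have h7 : Θ (Θ (s.1 a (1 - (1 - c)))) = s.1 (1 - c) a := h6
  rwa [sub_sub_cancel] at h7

/-- a non-zero rational family -/
theorem exists_rat [CharP k 2] [IsAlgClosed k] [FiniteDimensional k V] (h : FrM ρ Θ) (D : PDat ι P y t0 ζ)
    (H : Ex2 P ρ 0 2) : ∃ s, Fam2 P ρ 0 2 s ∧ s ≠ 0 ∧ ∀ a c, Θ (Θ (s a c)) = s (1 - c) a := by
  obtain ⟨w, hw, hw0⟩ := H
  by_contra hcon
  push Not at hcon
  apply hw0
  have h1 := lang02 h D hw
  have h2 : {s : Fin 2 → Fin 2 → V | Fam2 P ρ 0 2 s ∧ ∀ a c, Θ (Θ (s a c)) = s (1 - c) a} ⊆ {0} := by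
    rintro s ⟨hs, hr⟩
    by_contra h0
    obtain ⟨a, c, hac⟩ := hcon s hs h0
    exact hac (hr a c)
  have h3 := Submodule.span_mono (R := k) h2 h1
  rwa [Submodule.span_zero_singleton, Submodule.mem_bot] at h3

end Cfsg.Agent.H280.L16
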