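import Cfsg.Agent.H280.L16.Brk
import Cfsg.Agent.H280.L16.Lng

/-!
# S5916: general facts for the equations of the families (helper280)
-/

set_option autoImplicit false
set_option linter.unusedSectionVars false

namespace Cfsg.Agent.H280.L16

open Matrix

/-- the index of a sign -/
def bi (b : Bool) : Fin 2 := if b then 0 else 1

theorem bi_not (b : Bool) : bi (!b) = 1 - bi b := by cases b <;> rfl

theorem sum_bi {M : Type*} [AddCommMonoid M] (f : Fin 2 → M) : ∑ b : Bool, f (bi b) = ∑ a, f a := by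
  rw [Fintype.sum_bool, Fin.sum_univ_two]
  rfl

section Gen

variable {k : Type*} [Field k] {F : Type*} [Field F] [Fintype F] {ι : F →+* k}
  {P : SpecialLinearGroup (Fin 2) F →* Matrix (Fin 2) (Fin 2) k} {y t0 : SpecialLinearGroup (Fin 2) F} {ζ : k}
  {V : Type*} [AddCommGroup V] [Module k V] {ρ : Representation k (SpecialLinearGroup (Fin 2) F) V}

theorem no1_of (D : PDat ι P y t0 ζ) (h : ∀ i < 4, ∀ w : Fin 2 → V, Fam1 P ρ i w → w = 0) (m : ℕ) (w : Fin 2 → V)
    (hw : Fam1 P ρ m w) : w = 0 := by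
  induction m using Nat.strong_induction_on generalizing w with
  | _ m ih =>
    rcases lt_or_ge m 4 with hm | hm
    · exact h m hm w hw
    · obtain ⟨l, rfl⟩ := Nat.exists_eq_add_of_le hm
      rw [add_comm 4 l] at hw
      have h1 := ih l (by omega) _ (D.dn1.1 hw)
      funext a
      have h2 := congrFun h1 (1 - a)
      simpa using h2

theorem no2_of (D : PDat ι P y t0 ζ)
    (h : ∀ i < 4, ∀ j < 4, i ≠ j → ∀ w : Fin 2 → Fin 2 → V, Fam2 P ρ i j w → w = 0) (m n : ℕ) (hmn : m % 4 ≠ n % 4)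
    (w : Fin 2 → Fin 2 → V) (hw : Fam2 P ρ m n w) : w = 0 := by
  obtain ⟨s, hs⟩ : ∃ s, s = m + n := ⟨_, rfl⟩
  induction s using Nat.strong_induction_on generalizing m n w with
  | _ s ih =>
    subst hs
    rcases lt_or_ge m 4 with hm | hm
    · rcases lt_or_ge n 4 with hn | hn
      · exact h m hm n hn (by omega) w hw
      · obtain ⟨l, rfl⟩ := Nat.exists_eq_add_of_le hn
        rw [add_comm 4 l] at hw
        have h1 := ih (m + l) (by omega) m l (by omega) _ (D.dn2'.1 hw) rfl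
        funext a c
        have h2 := congrFun (congrFun h1 a) (1 - c)
        simpa using h2
    · obtain ⟨l, rfl⟩ := Nat.exists_eq_add_of_le hm
      rw [add_comm 4 l] at hw
      have h1 := ih (l + n) (by omega) l n (by omega) _ (D.dn2.1 hw) rfl
      funext a c
      have h2 := congrFun (congrFun h1 (1 - a)) c
      simpa using h2

theorem fam11 {br : V →ₗ[k] V →ₗ[k] V} (hinv : ∀ g u v, ρ g (br u v) = br (ρ g u) (ρ g v)) {i j : ℕ} {s t : Fin 2 → V}
    (hs : Fam1 P ρ i s) (ht : Fam1 P ρ j t) : Fam2 P ρ i j fun a b => br (s a) (t b) := by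
  intro g a c
  rw [hinv, hs, ht]
  simp only [map_sum, LinearMap.sum_apply, map_smul, LinearMap.smul_apply, smul_smul, Finset.smul_sum]
  rw [Finset.sum_comm]
  refine Finset.sum_congr rfl fun b _ => Finset.sum_congr rfl fun d _ => ?_
  rw [mul_comm]

variable [CharP k 2]

/-- the half invariant of `[s a b, t c d]` -/
theorem half22 (hdet : ∀ s, P s 0 0 * P s 1 1 - P s 0 1 * P s 1 0 = 1) (hfix : ∀ v, (∀ g, ρ g v = v) → v = 0)
    {br : V →ₗ[k] V →ₗ[k] V} (h : Brk ρ br) {i j l m : ℕ} {s t : Fin 2 → Fin 2 → V} (hs : Fam2 P ρ i j s)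
    (ht : Fam2 P ρ l m t) :
    ∑ b, ∑ c, ∑ d, br (br (s 0 b) (t c d)) (br (s 1 (1 - b)) (t (1 - c) (1 - d))) = 0 := by
  have h1 := halfX (P := P) (ρ := ρ) hdet hfix h (X := Fin 2 × Fin 2 × Fin 2) (σ := fun x => (1 - x.1, 1 - x.2.1, 1 - x.2.2))
    (by decide) (by decide) (i := i)
    (N := fun g => Matrix.of fun y x => PM P j g y.1 x.1 * (PM P l g y.2.1 x.2.1 * PM P m g y.2.2 x.2.2)) ?_
    (z := fun a x => br (s a x.1) (t x.2.1 x.2.2)) ?_
  · simpa only [Fintype.sum_prod_type] using h1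
  · intro g y u
    have e1 := PM_contr (P := P) hdet j g y.1 u.1
    have e2 := PM_contr (P := P) hdet l g y.2.1 u.2.1
    have e3 := PM_contr (P := P) hdet m g y.2.2 u.2.2
    have e4 : ∑ x : Fin 2 × Fin 2 × Fin 2, (PM P j g y.1 x.1 * (PM P l g y.2.1 x.2.1 * PM P m g y.2.2 x.2.2)) *
        (PM P j g u.1 (1 - x.1) * (PM P l g u.2.1 (1 - x.2.1) * PM P m g u.2.2 (1 - x.2.2))) =
        (∑ x, PM P j g y.1 x * PM P j g u.1 (1 - x)) * ((∑ x, PM P l g y.2.1 x * PM P l g u.2.1 (1 - x)) *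
          (∑ x, PM P m g y.2.2 x * PM P m g u.2.2 (1 - x))) := by
      rw [Fintype.sum_prod_type]
      simp only [Fintype.sum_prod_type, Fin.sum_univ_two]
      ring
    have e5 : (u = (1 - y.1, 1 - y.2.1, 1 - y.2.2)) = (u.1 = 1 - y.1 ∧ u.2.1 = 1 - y.2.1 ∧ u.2.2 = 1 - y.2.2) := by
      rw [Prod.ext_iff, Prod.ext_iff]
    show ∑ x : Fin 2 × Fin 2 × Fin 2, (PM P j g y.1 x.1 * (PM P l g y.2.1 x.2.1 * PM P m g y.2.2 x.2.2)) *
        (PM P j g u.1 (1 - x.1) * (PM P l g u.2.1 (1 - x.2.1) * PM P m g u.2.2 (1 - x.2.2))) =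
        if u = (1 - y.1, 1 - y.2.1, 1 - y.2.2) then 1 else 0
    rw [e4, e1, e2, e3]
    simp only [e5]
    split_ifs <;> simp_all
  · intro g a x
    show ρ g (br (s a x.1) (t x.2.1 x.2.2)) = ∑ b, (P g b a) ^ 2 ^ i • ∑ y : Fin 2 × Fin 2 × Fin 2,
      (PM P j g y.1 x.1 * (PM P l g y.2.1 x.2.1 * PM P m g y.2.2 x.2.2)) • br (s b y.1) (t y.2.1 y.2.2)
    rw [h.inv, hs, ht]
    simp only [Fintype.sum_prod_type, map_sum, LinearMap.sum_apply, map_smul, LinearMap.smul_apply, smul_smul,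
      Finset.smul_sum, PM_apply]
    simp only [Fin.sum_univ_two]
    module

end Gen

end Cfsg.Agent.H280.L16
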