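import Cfsg.Agent.H280.L16.EqG
import Cfsg.Agent.H771.L16.Ctr
import Cfsg.Agent.H939.L16.Def2
import Cfsg.Agent.H939.L64.Base

/-!
# S5916: the equations of the families (helper280)

`MinF P ρ n` (no fixed vectors, no families with fewer indices) gives literally the equations `SS1`, `INV1`, `SS2`, `INV2`,
`SIG`, `RAT`, `SS3`, `SA`, `SB` of `H955/L16/Stmt.lean` for every family with `n` indices.
-/

set_option autoImplicit false
set_option linter.unusedSectionVars false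
set_option maxRecDepth 100000

namespace Cfsg.Agent.H280.L16

open Matrix
open Cfsg.Agent.H939.L64 (KK LK brK brL brL_apply)
open Cfsg.Agent.H939.L16 (MinF)
open Cfsg.Agent.H955.L16 (SS1 INV1 SS2 INV2 SIG RAT SS3 SA SB sg)

theorem bi_true : bi true = 0 := rfl

theorem bi_false : bi false = 1 := rfl

section LKs

variable {F : Type} [Field F] [Fintype F] {ι : F →+* KK}
  {P : SpecialLinearGroup (Fin 2) F →* Matrix (Fin 2) (Fin 2) KK} {y t0 : SpecialLinearGroup (Fin 2) F} {ζ : KK}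
  {ρ : Representation KK (SpecialLinearGroup (Fin 2) F) LK} {Fp : LK → LK}

/-- no family with one index -/
theorem minF_no1 (D : PDat ι P y t0 ζ) {n : ℕ} (h : MinF P ρ n) (hn : 1 < n) (m : ℕ) (w : Fin 2 → LK)
    (hw : Fam1 P ρ m w) : w = 0 := no1_of D (h.2.1 hn) m w hw

/-- no family with two indices -/
theorem minF_no2 (D : PDat ι P y t0 ζ) {n : ℕ} (h : MinF P ρ n) (hn : 2 < n) (m l : ℕ) (hml : m % 4 ≠ l % 4)
    (w : Fin 2 → Fin 2 → LK) (hw : Fam2 P ρ m l w) : w = 0 := no2_of D (h.2.2 hn) m l hml w hw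

variable (D : PDat ι P y t0 ζ) (hB : Brk ρ brL) (hF : FrM ρ Fp)
include D hB

/-- **SS1** -/
theorem eq_ss1 {n : ℕ} (h : MinF P ρ n) {i : ℕ} {w : Fin 2 → LK} (hw : Fam1 P ρ i w) : SS1 fun b => w (bi b) :=
  fun a b => ss1 D.det h.1 hB hw (bi a) (bi b)

/-- **SS2** -/
theorem eq_ss2 {n : ℕ} (h : MinF P ρ n) (hn : 1 < n) {i j : ℕ} {w : Fin 2 → Fin 2 → LK} (hw : Fam2 P ρ i j w) :
    SS2 fun a b => w (bi a) (bi b) :=
  fun a b c d => ss2 D.det h.1 hB (minF_no1 D h hn _) (minF_no1 D h hn _) hw (bi a) (bi b) (bi c) (bi d)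

/-- **SS3** -/
theorem eq_ss3 {n : ℕ} (h : MinF P ρ n) (hn : 2 < n) {i j l : ℕ} (hij : i % 4 ≠ j % 4) (hil : i % 4 ≠ l % 4)
    (hjl : j % 4 ≠ l % 4) {w : Fin 2 → Fin 2 → Fin 2 → LK} (hw : Fam3 P ρ i j l w) :
    SS3 fun a b c => w (bi a) (bi b) (bi c) :=
  fun a b c a' b' c' => ss3 D.det h.1 hB (minF_no1 D h (by omega)) (minF_no2 D h hn _ _ (by omega))
    (minF_no2 D h hn _ _ (by omega)) (minF_no2 D h hn _ _ (by omega)) hw (bi a) (bi b) (bi c) (bi a') (bi b') (bi c')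

include hF

/-- **INV1** -/
theorem eq_inv1 {n : ℕ} (h : MinF P ρ n) {i : ℕ} {w : Fin 2 → LK} (hw : Fam1 P ρ i w) : INV1 Fp fun b => w (bi b) :=
  by
  have h1 := half2 D.det h.1 hB (fam11 hB.inv hw (hF.fam1 (hF.fam1 hw)))
  simp only [brL_apply] at h1
  unfold INV1
  simp only [bi_true, bi_false]
  exact h1

/-- **INV2** -/
theorem eq_inv2 {n : ℕ} (h : MinF P ρ n) {i j : ℕ} {w : Fin 2 → Fin 2 → LK} (hw : Fam2 P ρ i j w) :
    INV2 Fp fun a b => w (bi a) (bi b) := by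
  have h1 := half22 D.det h.1 hB hw (hF.fam2 (hF.fam2 hw))
  simp only [brL_apply] at h1
  unfold INV2
  simp only [bi_not, bi_true, bi_false]
  rw [sum_bi fun b => ∑ c : Bool, ∑ d : Bool, brK (brK (w 0 b) (Fp (Fp (w (bi c) (bi d)))))
    (brK (w 1 (1 - b)) (Fp (Fp (w (1 - bi c) (1 - bi d)))))]
  refine Eq.trans (Finset.sum_congr rfl fun b _ => ?_) h1
  rw [sum_bi fun c => ∑ d : Bool, brK (brK (w 0 b) (Fp (Fp (w c (bi d)))))
    (brK (w 1 (1 - b)) (Fp (Fp (w (1 - c) (1 - bi d)))))]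
  refine Finset.sum_congr rfl fun c _ => ?_
  rw [sum_bi fun d => brK (brK (w 0 b) (Fp (Fp (w c d)))) (brK (w 1 (1 - b)) (Fp (Fp (w (1 - c) (1 - d)))))]

/-- **SIG** -/
theorem eq_sig {n : ℕ} (h : MinF P ρ n) {i : ℕ} {w : Fin 2 → Fin 2 → LK} (hw : Fam2 P ρ i (i + 1) w) :
    SIG Fp fun a b => w (bi a) (bi b) := by
  have h1 := Cfsg.Agent.H771.L16.con2 D hB.inv hw (hF.fam2 hw)
  have h2 := half2 D.det h.1 hB h1
  simp only [brL_apply] at h2
  have h3 : ∀ a d, sg Fp (fun a b => w (bi a) (bi b)) a d = ∑ b, brK (w (bi a) b) (Fp (w (1 - b) (bi d))) := by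
    intro a d
    unfold sg
    simp only [bi_not]
    rw [sum_bi fun b => brK (w (bi a) b) (Fp (w (1 - b) (bi d)))]
  unfold SIG
  simp only [h3, bi_true, bi_false]
  exact h2

/-- **SA** -/
theorem eq_sa {n : ℕ} (h : MinF P ρ n) (hn : 2 < n) {i : ℕ} {w : Fin 2 → Fin 2 → Fin 2 → LK}
    (hw : Fam3 P ρ i (i + 1) (i + 2) w) : SA Fp fun a b c => w (bi a) (bi b) (bi c) := by
  have h1 := Cfsg.Agent.H771.L16.con3a D hB.inv hw (hF.fam3 hw)
  have h2 := minF_no2 D h hn _ _ (by omega) _ h1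
  intro a d
  simp only [bi_not]
  rw [sum_bi fun b => ∑ c : Bool, brK (w (bi a) b (bi c)) (Fp (w (1 - b) (1 - bi c) (bi d)))]
  have h3 := congrFun (congrFun h2 (bi a)) (bi d)
  simp only [brL_apply] at h3
  refine Eq.trans (Finset.sum_congr rfl fun b _ => ?_) h3
  rw [sum_bi fun c => brK (w (bi a) b c) (Fp (w (1 - b) (1 - c) (bi d)))]

/-- **SB** -/
theorem eq_sb {n : ℕ} (h : MinF P ρ n) (hn : 2 < n) {i : ℕ} {w : Fin 2 → Fin 2 → Fin 2 → LK}
    (hw : Fam3 P ρ i (i + 1) (i + 2) w) : SB Fp fun a b c => w (bi a) (bi b) (bi c) := by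
  have h1 := Cfsg.Agent.H771.L16.con3b D hB.inv hw (hF.fam3 (hF.fam3 hw))
  have h2 := minF_no2 D h hn _ _ (by omega) _ h1
  intro b d
  simp only [bi_not]
  rw [sum_bi fun a => ∑ c : Bool, brK (w a (bi b) (bi c)) (Fp (Fp (w (1 - bi c) (bi d) a)))]
  have h3 := congrFun (congrFun h2 (bi b)) (bi d)
  simp only [brL_apply] at h3
  refine Eq.trans (Finset.sum_congr rfl fun a _ => ?_) h3
  rw [sum_bi fun c => brK (w a (bi b) c) (Fp (Fp (w (1 - c) (bi d) a)))]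

omit D hB hF

/-- **RAT** -/
theorem eq_rat {w : Fin 2 → Fin 2 → LK} (hr : ∀ a c, Fp (Fp (w a c)) = w (1 - c) a) :
    RAT Fp fun a b => w (bi a) (bi b) := by
  intro a b
  show Fp (Fp (w (bi a) (bi b))) = w (bi (!b)) (bi a)
  rw [hr, bi_not]

end LKs

end Cfsg.Agent.H280.L16
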