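import Cfsg.Agent.H280.L16.Fix
import Cfsg.Agent.H179.SLC.Vb

/-!
# S5916: families of vectors in place of simple modules (helper280)

`Fam1`, `Fam2`, `Fam3`: the vectors `w a`, `w a c`, `w a c e` transform like `⊗ P^(2 ^ i)`.

`exists_fam`: a module with a non-zero vector fixed by the element of order 17 and without fixed vectors of the group has
a non-zero family of one of these types (the Steinberg module is not needed).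
-/

set_option autoImplicit false
set_option linter.unusedSectionVars false

namespace Cfsg.Agent.H280.L16

open Matrix Cfsg.Agent.H943.SL2Rel Cfsg.Agent.H943.SL2Mod Cfsg.Agent.H943.RepAdd

section Def

variable {k : Type*} [Field k] {F : Type*} [Field F] {V : Type*} [AddCommGroup V] [Module k V]
  (P : SpecialLinearGroup (Fin 2) F →* Matrix (Fin 2) (Fin 2) k)
  (ρ : Representation k (SpecialLinearGroup (Fin 2) F) V)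

/-- the vectors `w a` transform like `P^(2 ^ i)` -/
def Fam1 (i : ℕ) (w : Fin 2 → V) : Prop := ∀ s a, ρ s (w a) = ∑ b, (P s b a) ^ 2 ^ i • w b

/-- the vectors `w a c` transform like `P^(2 ^ i) ⊗ P^(2 ^ j)` -/
def Fam2 (i j : ℕ) (w : Fin 2 → Fin 2 → V) : Prop :=
  ∀ s a c, ρ s (w a c) = ∑ b, ∑ d, ((P s b a) ^ 2 ^ i * (P s d c) ^ 2 ^ j) • w b d

/-- the vectors `w a c e` transform like `P^(2 ^ i) ⊗ P^(2 ^ j) ⊗ P^(2 ^ l)` -/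
def Fam3 (i j l : ℕ) (w : Fin 2 → Fin 2 → Fin 2 → V) : Prop :=
  ∀ s a c e, ρ s (w a c e) = ∑ b, ∑ d, ∑ f, ((P s b a) ^ 2 ^ i * (P s d c) ^ 2 ^ j * (P s f e) ^ 2 ^ l) • w b d f

end Def

section Fun

variable {k : Type*} [Field k] [CharP k 2] {F : Type*} [Field F] (ι : F →+* k) (A : Matrix (Fin 2) (Fin 2) k)

/-- the coordinate functions in the basis of the columns of `A` -/
def lam (a : Fin 2) : F × F → k := fun z => A 0 a * ι z.1 + A 1 a * ι z.2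

variable {ι A} {P : SpecialLinearGroup (Fin 2) F →* Matrix (Fin 2) (Fin 2) k}

theorem lam_act {B : Matrix (Fin 2) (Fin 2) k} (hAB : A * B = 1)
    (hP : ∀ s : SpecialLinearGroup (Fin 2) F, P s = B * ((s : Matrix (Fin 2) (Fin 2) F).map ι) * A)
    (s : SpecialLinearGroup (Fin 2) F) (a : Fin 2) (z : F × F) :
    lam ι A a (z.1 * s.1 0 0 + z.2 * s.1 1 0, z.1 * s.1 0 1 + z.2 * s.1 1 1) =
      P s 0 a * lam ι A 0 z + P s 1 a * lam ι A 1 z := by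
  have h1 : A * P s = ((s : Matrix (Fin 2) (Fin 2) F).map ι) * A := by
    rw [hP, ← Matrix.mul_assoc, ← Matrix.mul_assoc, hAB, Matrix.one_mul]
  have h0 := congrFun (congrFun h1 0) a
  have h1' := congrFun (congrFun h1 1) a
  rw [Matrix.mul_apply, Matrix.mul_apply, Fin.sum_univ_two, Fin.sum_univ_two] at h0 h1'
  simp only [Matrix.map_apply] at h0 h1'
  unfold lam
  simp only [map_add, map_mul]
  linear_combination -(ι z.1) * h0 - (ι z.2) * h1'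

theorem lam_act_pow {B : Matrix (Fin 2) (Fin 2) k} (hAB : A * B = 1)
    (hP : ∀ s : SpecialLinearGroup (Fin 2) F, P s = B * ((s : Matrix (Fin 2) (Fin 2) F).map ι) * A) (i : ℕ)
    (s : SpecialLinearGroup (Fin 2) F) (a : Fin 2) (z : F × F) :
    (lam ι A a (z.1 * s.1 0 0 + z.2 * s.1 1 0, z.1 * s.1 0 1 + z.2 * s.1 1 1)) ^ 2 ^ i =
      (P s 0 a) ^ 2 ^ i * (lam ι A 0 z) ^ 2 ^ i + (P s 1 a) ^ 2 ^ i * (lam ι A 1 z) ^ 2 ^ i := by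
  rw [lam_act hAB hP, add_pow_char_pow, mul_pow, mul_pow]

theorem lam_pow (i : ℕ) (a : Fin 2) (z : F × F) :
    (lam ι A a z) ^ 2 ^ i = (A 0 a) ^ 2 ^ i * (ι z.1) ^ 2 ^ i + (A 1 a) ^ 2 ^ i * (ι z.2) ^ 2 ^ i := by
  unfold lam
  rw [add_pow_char_pow, mul_pow, mul_pow]

theorem mem_Bb_of {b m : ℕ} (h : m ≤ b) (h2 : b.choose m % 2 = 1) : m ∈ Bb k b := by
  refine ⟨h, fun h0 => ?_⟩
  have := (CharP.cast_eq_zero_iff k 2 _).1 h0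
  omega

variable [Fintype F] [DecidableEq F] [CharP F 2] [DecidableEq k]

theorem mem1 (hs1 : (-1 : k) ^ (Fintype.card F - 1) = 1) {i : ℕ} (hb : 2 ^ i ≤ Fintype.card F - 1)
    (h0 : ∀ m ∈ [0, 2 ^ i], m ∈ Bb k (2 ^ i)) (a : Fin 2) :
    (fun z => (lam ι A a z) ^ 2 ^ i) ∈ Vb ι (2 ^ i) := by
  have e : (fun z => (lam ι A a z) ^ 2 ^ i) = (A 0 a) ^ 2 ^ i • mon ι (2 ^ i) (2 ^ i) + (A 1 a) ^ 2 ^ i • mon ι (2 ^ i) 0 := by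
    funext z
    rw [lam_pow]
    show _ = (A 0 a) ^ 2 ^ i * (ι z.1 ^ 2 ^ i * ι z.2 ^ (2 ^ i - 2 ^ i)) + (A 1 a) ^ 2 ^ i * (ι z.1 ^ 0 * ι z.2 ^ (2 ^ i - 0))
    rw [Nat.sub_self, Nat.sub_zero, pow_zero, pow_zero]
    ring
  rw [e]
  exact add_mem (Submodule.smul_mem _ _ (Cfsg.Agent.H179.SLC.mon_mem_Vb ι 2 hs1 hb (h0 _ (by simp))))
    (Submodule.smul_mem _ _ (Cfsg.Agent.H179.SLC.mon_mem_Vb ι 2 hs1 hb (h0 _ (by simp))))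

theorem mem2 (hs1 : (-1 : k) ^ (Fintype.card F - 1) = 1) {i j : ℕ} (hb : 2 ^ i + 2 ^ j ≤ Fintype.card F - 1)
    (h0 : ∀ m ∈ [0, 2 ^ i, 2 ^ j, 2 ^ i + 2 ^ j], m ∈ Bb k (2 ^ i + 2 ^ j)) (a c : Fin 2) :
    (fun z => (lam ι A a z) ^ 2 ^ i * (lam ι A c z) ^ 2 ^ j) ∈ Vb ι (2 ^ i + 2 ^ j) := by
  have e : (fun z => (lam ι A a z) ^ 2 ^ i * (lam ι A c z) ^ 2 ^ j) =
      ((A 0 a) ^ 2 ^ i * (A 0 c) ^ 2 ^ j) • mon ι (2 ^ i + 2 ^ j) (2 ^ i + 2 ^ j) +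
      ((A 0 a) ^ 2 ^ i * (A 1 c) ^ 2 ^ j) • mon ι (2 ^ i + 2 ^ j) (2 ^ i) +
      ((A 1 a) ^ 2 ^ i * (A 0 c) ^ 2 ^ j) • mon ι (2 ^ i + 2 ^ j) (2 ^ j) +
      ((A 1 a) ^ 2 ^ i * (A 1 c) ^ 2 ^ j) • mon ι (2 ^ i + 2 ^ j) 0 := by
    funext z
    rw [lam_pow, lam_pow]
    simp only [Pi.add_apply, Pi.smul_apply, smul_eq_mul, mon]
    rw [Nat.sub_self, Nat.sub_zero, Nat.add_sub_cancel, Nat.add_sub_cancel_left, pow_zero, pow_zero, pow_add, pow_add]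
    ring
  rw [e]
  have hm : ∀ m ∈ [0, 2 ^ i, 2 ^ j, 2 ^ i + 2 ^ j], mon ι (2 ^ i + 2 ^ j) m ∈ Vb ι (2 ^ i + 2 ^ j) := fun m h =>
    Cfsg.Agent.H179.SLC.mon_mem_Vb ι 2 hs1 hb (h0 m h)
  exact add_mem (add_mem (add_mem (Submodule.smul_mem _ _ (hm _ (by simp))) (Submodule.smul_mem _ _ (hm _ (by simp))))
    (Submodule.smul_mem _ _ (hm _ (by simp)))) (Submodule.smul_mem _ _ (hm _ (by simp)))

theorem mem3 (hs1 : (-1 : k) ^ (Fintype.card F - 1) = 1) {i j l : ℕ} (hb : 2 ^ i + 2 ^ j + 2 ^ l ≤ Fintype.card F - 1)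
    (h0 : ∀ m ∈ [0, 2 ^ i, 2 ^ j, 2 ^ l, 2 ^ i + 2 ^ j, 2 ^ i + 2 ^ l, 2 ^ j + 2 ^ l, 2 ^ i + 2 ^ j + 2 ^ l],
      m ∈ Bb k (2 ^ i + 2 ^ j + 2 ^ l)) (a c e : Fin 2) :
    (fun z => (lam ι A a z) ^ 2 ^ i * (lam ι A c z) ^ 2 ^ j * (lam ι A e z) ^ 2 ^ l) ∈ Vb ι (2 ^ i + 2 ^ j + 2 ^ l) := by
  have e : (fun z => (lam ι A a z) ^ 2 ^ i * (lam ι A c z) ^ 2 ^ j * (lam ι A e z) ^ 2 ^ l) =
      ((A 0 a) ^ 2 ^ i * (A 0 c) ^ 2 ^ j * (A 0 e) ^ 2 ^ l) • mon ι (2 ^ i + 2 ^ j + 2 ^ l) (2 ^ i + 2 ^ j + 2 ^ l) +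
      ((A 0 a) ^ 2 ^ i * (A 0 c) ^ 2 ^ j * (A 1 e) ^ 2 ^ l) • mon ι (2 ^ i + 2 ^ j + 2 ^ l) (2 ^ i + 2 ^ j) +
      ((A 0 a) ^ 2 ^ i * (A 1 c) ^ 2 ^ j * (A 0 e) ^ 2 ^ l) • mon ι (2 ^ i + 2 ^ j + 2 ^ l) (2 ^ i + 2 ^ l) +
      ((A 0 a) ^ 2 ^ i * (A 1 c) ^ 2 ^ j * (A 1 e) ^ 2 ^ l) • mon ι (2 ^ i + 2 ^ j + 2 ^ l) (2 ^ i) +
      ((A 1 a) ^ 2 ^ i * (A 0 c) ^ 2 ^ j * (A 0 e) ^ 2 ^ l) • mon ι (2 ^ i + 2 ^ j + 2 ^ l) (2 ^ j + 2 ^ l) +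
      ((A 1 a) ^ 2 ^ i * (A 0 c) ^ 2 ^ j * (A 1 e) ^ 2 ^ l) • mon ι (2 ^ i + 2 ^ j + 2 ^ l) (2 ^ j) +
      ((A 1 a) ^ 2 ^ i * (A 1 c) ^ 2 ^ j * (A 0 e) ^ 2 ^ l) • mon ι (2 ^ i + 2 ^ j + 2 ^ l) (2 ^ l) +
      ((A 1 a) ^ 2 ^ i * (A 1 c) ^ 2 ^ j * (A 1 e) ^ 2 ^ l) • mon ι (2 ^ i + 2 ^ j + 2 ^ l) 0 := by
    funext z
    rw [lam_pow, lam_pow, lam_pow]
    simp only [Pi.add_apply, Pi.smul_apply, smul_eq_mul, mon]
    have hn : ∀ p q r : ℕ, p + q + r - (p + q) = r ∧ p + q + r - (p + r) = q ∧ p + q + r - (q + r) = p ∧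
      p + q + r - p = q + r ∧ p + q + r - q = p + r ∧ p + q + r - r = p + q := by omega
    obtain ⟨e1, e2, e3, e4, e5, e6⟩ := hn (2 ^ i) (2 ^ j) (2 ^ l)
    rw [Nat.sub_self, Nat.sub_zero, e1, e2, e3, e4, e5, e6]
    simp only [pow_zero, pow_add]
    ring
  rw [e]
  have hm : ∀ m ∈ [0, 2 ^ i, 2 ^ j, 2 ^ l, 2 ^ i + 2 ^ j, 2 ^ i + 2 ^ l, 2 ^ j + 2 ^ l, 2 ^ i + 2 ^ j + 2 ^ l],
      mon ι (2 ^ i + 2 ^ j + 2 ^ l) m ∈ Vb ι (2 ^ i + 2 ^ j + 2 ^ l) := fun m h =>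
    Cfsg.Agent.H179.SLC.mon_mem_Vb ι 2 hs1 hb (h0 m h)
  exact add_mem (add_mem (add_mem (add_mem (add_mem (add_mem (add_mem (Submodule.smul_mem _ _ (hm _ (by simp)))
    (Submodule.smul_mem _ _ (hm _ (by simp)))) (Submodule.smul_mem _ _ (hm _ (by simp))))
    (Submodule.smul_mem _ _ (hm _ (by simp)))) (Submodule.smul_mem _ _ (hm _ (by simp))))
    (Submodule.smul_mem _ _ (hm _ (by simp)))) (Submodule.smul_mem _ _ (hm _ (by simp))))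
    (Submodule.smul_mem _ _ (hm _ (by simp)))

end Fun

section Main

universe v

variable {k : Type*} [Field k] [CharP k 2] [IsAlgClosed k] {F : Type*} [Field F] [Fintype F] [DecidableEq F] {ι : F →+* k}
  {P : SpecialLinearGroup (Fin 2) F →* Matrix (Fin 2) (Fin 2) k} {y t0 : SpecialLinearGroup (Fin 2) F} {ζ : k}

theorem exists_ne_zero {A B : Matrix (Fin 2) (Fin 2) k} (hAB : A * B = 1) : ∃ a, A 0 a ≠ 0 := by
  by_contra hcon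
  push Not at hcon
  have h1 := congrFun (congrFun hAB 0) 0
  rw [Matrix.mul_apply, Fin.sum_univ_two, hcon, hcon, zero_mul, zero_mul, add_zero, Matrix.one_apply_eq] at h1
  exact zero_ne_one h1

theorem lam_ne {A : Matrix (Fin 2) (Fin 2) k} {a : Fin 2} (ha : A 0 a ≠ 0) : lam ι A a (1, 0) ≠ 0 := by
  unfold lam
  rw [map_one, map_zero, mul_one, mul_zero, add_zero]
  exact ha

/-- the conclusion -/
def HasFam {V : Type*} [AddCommGroup V] [Module k V] (P : SpecialLinearGroup (Fin 2) F →* Matrix (Fin 2) (Fin 2) k)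
    (ρ : Representation k (SpecialLinearGroup (Fin 2) F) V) (L : Submodule k V) : Prop :=
  (∃ i < 4, ∃ w, Fam1 P ρ i w ∧ w ≠ 0 ∧ ∀ a, w a ∈ L) ∨
  (∃ i j, i < j ∧ j < 4 ∧ ∃ w, Fam2 P ρ i j w ∧ w ≠ 0 ∧ ∀ a c, w a c ∈ L) ∨
  (∃ i j l, i < j ∧ j < l ∧ l < 4 ∧ ∃ w, Fam3 P ρ i j l w ∧ w ≠ 0 ∧ ∀ a c e, w a c e ∈ L)

variable {V : Type*} [AddCommGroup V] [Module k V] (ρ : Representation k (SpecialLinearGroup (Fin 2) F) V)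

section Fams

variable [CharP F 2] (D : PDat ι P y t0 ζ) (hs1 : (-1 : k) ^ (Fintype.card F - 1) = 1)

include D in
theorem fam1 {i : ℕ} (hb : 2 ^ i ≤ Fintype.card F - 1)
    (φ : Vb ι (2 ^ i) →ₗ[k] V) (hφ : Function.Injective φ)
    (hρ : ∀ g x, φ (Cfsg.Agent.H179.SLC.rb ι 2 hs1 hb g x) = ρ g (φ x)) (hm : ∀ m ∈ [0, 2 ^ i], m ∈ Bb k (2 ^ i)) :
    ∃ w, Fam1 P ρ i w ∧ w ≠ 0 ∧ ∀ a, w a ∈ LinearMap.range φ := by
  classical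
  obtain ⟨A, B, hAB, hBA, hP⟩ := D.conj
  let x : Fin 2 → Vb ι (2 ^ i) := fun a => ⟨_, mem1 (A := A) hs1 hb hm a⟩
  refine ⟨fun a => φ (x a), fun s a => ?_, fun h0 => ?_, fun a => ⟨_, rfl⟩⟩
  · rw [← hρ]
    simp only [← map_smul]
    rw [← map_sum]
    congr 1
    apply Subtype.ext
    rw [Submodule.coe_sum]
    funext z
    rw [Finset.sum_apply, Fin.sum_univ_two]
    exact lam_act_pow hAB hP i s a z
  · obtain ⟨a, ha⟩ := exists_ne_zero hAB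
    have h1 : x a = 0 := hφ (by rw [map_zero]; exact congrFun h0 a)
    have h2 := congrFun (congrArg Subtype.val h1) (1, 0)
    exact pow_ne_zero _ (lam_ne ha) h2

include D in
theorem fam2 {i j : ℕ} (hb : 2 ^ i + 2 ^ j ≤ Fintype.card F - 1)
    (φ : Vb ι (2 ^ i + 2 ^ j) →ₗ[k] V) (hφ : Function.Injective φ)
    (hρ : ∀ g x, φ (Cfsg.Agent.H179.SLC.rb ι 2 hs1 hb g x) = ρ g (φ x))
    (hm : ∀ m ∈ [0, 2 ^ i, 2 ^ j, 2 ^ i + 2 ^ j], m ∈ Bb k (2 ^ i + 2 ^ j)) :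
    ∃ w, Fam2 P ρ i j w ∧ w ≠ 0 ∧ ∀ a c, w a c ∈ LinearMap.range φ := by
  classical
  obtain ⟨A, B, hAB, hBA, hP⟩ := D.conj
  let x : Fin 2 → Fin 2 → Vb ι (2 ^ i + 2 ^ j) := fun a c => ⟨_, mem2 (A := A) hs1 hb hm a c⟩
  refine ⟨fun a c => φ (x a c), fun s a c => ?_, fun h0 => ?_, fun a c => ⟨_, rfl⟩⟩
  · rw [← hρ]
    simp only [← map_smul]
    simp only [← map_sum]
    congr 1
    apply Subtype.ext
    funext z
    have e1 := lam_act_pow hAB hP i s a z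
    have e2 := lam_act_pow hAB hP j s c z
    show (lam ι A a (z.1 * s.1 0 0 + z.2 * s.1 1 0, z.1 * s.1 0 1 + z.2 * s.1 1 1)) ^ 2 ^ i *
      (lam ι A c (z.1 * s.1 0 0 + z.2 * s.1 1 0, z.1 * s.1 0 1 + z.2 * s.1 1 1)) ^ 2 ^ j = _
    rw [e1, e2]
    simp only [Submodule.coe_smul, Pi.smul_apply, smul_eq_mul, Fin.sum_univ_two,
      Submodule.coe_add, Pi.add_apply, x]
    ring
  · obtain ⟨a, ha⟩ := exists_ne_zero hAB
    have h1 : x a a = 0 := hφ (by rw [map_zero]; exact congrFun (congrFun h0 a) a)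
    have h2 := congrFun (congrArg Subtype.val h1) (1, 0)
    exact mul_ne_zero (pow_ne_zero _ (lam_ne ha)) (pow_ne_zero _ (lam_ne ha)) h2

include D in
theorem fam3 {i j l : ℕ} (hb : 2 ^ i + 2 ^ j + 2 ^ l ≤ Fintype.card F - 1)
    (φ : Vb ι (2 ^ i + 2 ^ j + 2 ^ l) →ₗ[k] V) (hφ : Function.Injective φ)
    (hρ : ∀ g x, φ (Cfsg.Agent.H179.SLC.rb ι 2 hs1 hb g x) = ρ g (φ x))
    (hm : ∀ m ∈ [0, 2 ^ i, 2 ^ j, 2 ^ l, 2 ^ i + 2 ^ j, 2 ^ i + 2 ^ l, 2 ^ j + 2 ^ l, 2 ^ i + 2 ^ j + 2 ^ l],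
      m ∈ Bb k (2 ^ i + 2 ^ j + 2 ^ l)) :
    ∃ w, Fam3 P ρ i j l w ∧ w ≠ 0 ∧ ∀ a c e, w a c e ∈ LinearMap.range φ := by
  classical
  obtain ⟨A, B, hAB, hBA, hP⟩ := D.conj
  let x : Fin 2 → Fin 2 → Fin 2 → Vb ι (2 ^ i + 2 ^ j + 2 ^ l) := fun a c e => ⟨_, mem3 (A := A) hs1 hb hm a c e⟩
  refine ⟨fun a c e => φ (x a c e), fun s a c e => ?_, fun h0 => ?_, fun a c e => ⟨_, rfl⟩⟩
  · rw [← hρ]
    simp only [← map_smul]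
    simp only [← map_sum]
    congr 1
    apply Subtype.ext
    funext z
    have e1 := lam_act_pow hAB hP i s a z
    have e2 := lam_act_pow hAB hP j s c z
    have e3 := lam_act_pow hAB hP l s e z
    show (lam ι A a (z.1 * s.1 0 0 + z.2 * s.1 1 0, z.1 * s.1 0 1 + z.2 * s.1 1 1)) ^ 2 ^ i *
      (lam ι A c (z.1 * s.1 0 0 + z.2 * s.1 1 0, z.1 * s.1 0 1 + z.2 * s.1 1 1)) ^ 2 ^ j *
      (lam ι A e (z.1 * s.1 0 0 + z.2 * s.1 1 0, z.1 * s.1 0 1 + z.2 * s.1 1 1)) ^ 2 ^ l = _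
    rw [e1, e2, e3]
    simp only [Submodule.coe_smul, Pi.smul_apply, smul_eq_mul, Fin.sum_univ_two,
      Submodule.coe_add, Pi.add_apply, x]
    ring
  · obtain ⟨a, ha⟩ := exists_ne_zero hAB
    have h1 : x a a a = 0 := hφ (by rw [map_zero]; exact congrFun (congrFun (congrFun h0 a) a) a)
    have h2 := congrFun (congrArg Subtype.val h1) (1, 0)
    exact mul_ne_zero (mul_ne_zero (pow_ne_zero _ (lam_ne ha)) (pow_ne_zero _ (lam_ne ha))) (pow_ne_zero _ (lam_ne ha)) h2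

end Fams

end Main

end Cfsg.Agent.H280.L16
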