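import Cfsg.Agent.H280.L16.Mod
import Cfsg.Agent.H192.Lang

/-!
# S5916: normalised types of families, Lang's theorem for families (helper280)

`FrM ρ Θ`: `Θ` is additive, `Θ (c • v) = c ^ 2 • Θ v`, injective, and commutes with `ρ`. `Θ` maps families of type
`(i, j)` to families of type `(i + 1, j + 1)`; exponent `i + 4` = exponent `i`, flipped.
-/

set_option autoImplicit false
set_option linter.unusedSectionVars false

namespace Cfsg.Agent.H280.L16

open Matrix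

variable {k : Type*} [Field k] {F : Type*} [Field F] [Fintype F] {ι : F →+* k}
  {P : SpecialLinearGroup (Fin 2) F →* Matrix (Fin 2) (Fin 2) k} {y t0 : SpecialLinearGroup (Fin 2) F} {ζ : k}
  {V : Type*} [AddCommGroup V] [Module k V] {ρ : Representation k (SpecialLinearGroup (Fin 2) F) V}

/-- a Frobenius map of the module -/
structure FrM (ρ : Representation k (SpecialLinearGroup (Fin 2) F) V) (Θ : V → V) : Prop where
  add : ∀ u v, Θ (u + v) = Θ u + Θ v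
  smul : ∀ (c : k) v, Θ (c • v) = c ^ 2 • Θ v
  inj : Function.Injective Θ
  comm : ∀ s v, Θ (ρ s v) = ρ s (Θ v)

theorem FrM.zero {Θ : V → V} (h : FrM ρ Θ) : Θ 0 = 0 := by
  have := h.smul 0 0
  rwa [zero_smul, pow_two, mul_zero, zero_smul] at this

/-- rules of shift -/
theorem FrM.fam1 {Θ : V → V} (h : FrM ρ Θ) {i : ℕ} {w : Fin 2 → V} (hw : Fam1 P ρ i w) :
    Fam1 P ρ (i + 1) fun a => Θ (w a) := by
  intro s a
  rw [← h.comm, hw]
  simp only [Fin.sum_univ_two, h.add, h.smul, ← pow_mul, ← pow_succ]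

theorem FrM.fam2 {Θ : V → V} (h : FrM ρ Θ) {i j : ℕ} {w : Fin 2 → Fin 2 → V} (hw : Fam2 P ρ i j w) :
    Fam2 P ρ (i + 1) (j + 1) fun a c => Θ (w a c) := by
  intro s a c
  rw [← h.comm, hw]
  simp only [Fin.sum_univ_two, h.add, h.smul, mul_pow, ← pow_mul, ← pow_succ]

theorem FrM.fam3 {Θ : V → V} (h : FrM ρ Θ) {i j l : ℕ} {w : Fin 2 → Fin 2 → Fin 2 → V} (hw : Fam3 P ρ i j l w) :
    Fam3 P ρ (i + 1) (j + 1) (l + 1) fun a c e => Θ (w a c e) := by
  intro s a c e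
  rw [← h.comm, hw]
  simp only [Fin.sum_univ_two, h.add, h.smul, mul_pow, ← pow_mul, ← pow_succ]

/-! ### exponent `+ 4` -/

theorem PDat.shift (D : PDat ι P y t0 ζ) (s : SpecialLinearGroup (Fin 2) F) (a b : Fin 2) (i : ℕ) :
    (P s a b) ^ 2 ^ (i + 4) = (P s (1 - a) (1 - b)) ^ 2 ^ i := by
  rw [pow_add, mul_comm, pow_mul, ← D.fr]
  norm_num

theorem sum_flip {M : Type*} [AddCommMonoid M] (f : Fin 2 → M) : ∑ b, f (1 - b) = ∑ b, f b := by
  rw [Fin.sum_univ_two, Fin.sum_univ_two, add_comm]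
  rfl

theorem PDat.dn1 (D : PDat ι P y t0 ζ) {i : ℕ} {w : Fin 2 → V} : Fam1 P ρ (i + 4) w ↔ Fam1 P ρ i fun a => w (1 - a) := by
  constructor
  · intro hw s a
    rw [hw, ← sum_flip]
    refine Finset.sum_congr rfl fun b _ => ?_
    rw [D.shift, sub_sub_cancel, sub_sub_cancel]
  · intro hw s a
    have h1 := hw s (1 - a)
    simp only [sub_sub_cancel] at h1
    rw [h1, ← sum_flip]
    refine Finset.sum_congr rfl fun b _ => ?_
    rw [D.shift, sub_sub_cancel]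

theorem Fam2.swap {i j : ℕ} {w : Fin 2 → Fin 2 → V} (hw : Fam2 P ρ i j w) : Fam2 P ρ j i fun a c => w c a := by
  intro s a c
  rw [hw, Finset.sum_comm]
  exact Finset.sum_congr rfl fun b _ => Finset.sum_congr rfl fun d _ => by rw [mul_comm]

theorem PDat.dn2 (D : PDat ι P y t0 ζ) {i j : ℕ} {w : Fin 2 → Fin 2 → V} :
    Fam2 P ρ (i + 4) j w ↔ Fam2 P ρ i j fun a c => w (1 - a) c := by
  constructor
  · intro hw s a c
    rw [hw, ← sum_flip]
    refine Finset.sum_congr rfl fun b _ => Finset.sum_congr rfl fun d _ => ?_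
    rw [D.shift, sub_sub_cancel, sub_sub_cancel]
  · intro hw s a c
    have h1 := hw s (1 - a) c
    simp only [sub_sub_cancel] at h1
    rw [h1, ← sum_flip]
    refine Finset.sum_congr rfl fun b _ => Finset.sum_congr rfl fun d _ => ?_
    rw [D.shift, sub_sub_cancel]

theorem PDat.dn2' (D : PDat ι P y t0 ζ) {i j : ℕ} {w : Fin 2 → Fin 2 → V} :
    Fam2 P ρ i (j + 4) w ↔ Fam2 P ρ i j fun a c => w a (1 - c) := by
  constructor
  · intro hw
    exact (D.dn2.1 hw.swap).swap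
  · intro hw
    exact (D.dn2.2 hw.swap).swap

theorem Fam3.rot {i j l : ℕ} {w : Fin 2 → Fin 2 → Fin 2 → V} (hw : Fam3 P ρ i j l w) :
    Fam3 P ρ l i j fun a c e => w c e a := by
  intro s a c e
  rw [hw]
  simp only [Fin.sum_univ_two]
  have h1 : ∀ x y z : k, x * y * z = z * x * y := fun x y z => by ring
  simp only [h1]
  abel

theorem Fam3.swap {i j l : ℕ} {w : Fin 2 → Fin 2 → Fin 2 → V} (hw : Fam3 P ρ i j l w) :
    Fam3 P ρ j i l fun a c e => w c a e := by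
  intro s a c e
  rw [hw, Finset.sum_comm]
  refine Finset.sum_congr rfl fun b _ => Finset.sum_congr rfl fun d _ => Finset.sum_congr rfl fun f _ => ?_
  rw [mul_comm ((P s d c) ^ 2 ^ i)]

theorem PDat.dn3 (D : PDat ι P y t0 ζ) {i j l : ℕ} {w : Fin 2 → Fin 2 → Fin 2 → V} :
    Fam3 P ρ (i + 4) j l w ↔ Fam3 P ρ i j l fun a c e => w (1 - a) c e := by
  constructor
  · intro hw s a c e
    rw [hw, ← sum_flip]
    refine Finset.sum_congr rfl fun b _ => Finset.sum_congr rfl fun d _ => Finset.sum_congr rfl fun f _ => ?_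
    rw [D.shift, sub_sub_cancel, sub_sub_cancel]
  · intro hw s a c e
    have h1 := hw s (1 - a) c e
    simp only [sub_sub_cancel] at h1
    rw [h1, ← sum_flip]
    refine Finset.sum_congr rfl fun b _ => Finset.sum_congr rfl fun d _ => Finset.sum_congr rfl fun f _ => ?_
    rw [D.shift, sub_sub_cancel]

/-! ### existence -/

variable (P ρ) in
/-- a non-zero family -/
def Ex1 (i : ℕ) : Prop := ∃ w, Fam1 P ρ i w ∧ w ≠ 0

variable (P ρ) in
/-- a non-zero family -/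
def Ex2 (i j : ℕ) : Prop := ∃ w, Fam2 P ρ i j w ∧ w ≠ 0

variable (P ρ) in
/-- a non-zero family -/
def Ex3 (i j l : ℕ) : Prop := ∃ w, Fam3 P ρ i j l w ∧ w ≠ 0

section

variable {Θ : V → V} (h : FrM ρ Θ)
include h

theorem FrM.up1 {i : ℕ} (H : Ex1 P ρ i) : Ex1 P ρ (i + 1) := by
  obtain ⟨w, hw, hw0⟩ := H
  refine ⟨_, h.fam1 hw, fun h0 => hw0 (funext fun a => h.inj ?_)⟩
  rw [Pi.zero_apply, h.zero]
  exact congrFun h0 a

theorem FrM.up2 {i j : ℕ} (H : Ex2 P ρ i j) : Ex2 P ρ (i + 1) (j + 1) := by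
  obtain ⟨w, hw, hw0⟩ := H
  refine ⟨_, h.fam2 hw, fun h0 => hw0 (funext fun a => funext fun c => h.inj ?_)⟩
  rw [Pi.zero_apply, Pi.zero_apply, h.zero]
  exact congrFun (congrFun h0 a) c

theorem FrM.up3 {i j l : ℕ} (H : Ex3 P ρ i j l) : Ex3 P ρ (i + 1) (j + 1) (l + 1) := by
  obtain ⟨w, hw, hw0⟩ := H
  refine ⟨_, h.fam3 hw, fun h0 => hw0 (funext fun a => funext fun c => funext fun e => h.inj ?_)⟩
  rw [Pi.zero_apply, Pi.zero_apply, Pi.zero_apply, h.zero]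
  exact congrFun (congrFun (congrFun h0 a) c) e

end

section

variable (D : PDat ι P y t0 ζ)
include D

theorem PDat.ex1 {i : ℕ} (H : Ex1 P ρ (i + 4)) : Ex1 P ρ i := by
  obtain ⟨w, hw, hw0⟩ := H
  refine ⟨_, D.dn1.1 hw, fun h0 => hw0 (funext fun a => ?_)⟩
  have := congrFun h0 (1 - a)
  simpa using this

theorem PDat.ex2 {i j : ℕ} (H : Ex2 P ρ (i + 4) j) : Ex2 P ρ i j := by
  obtain ⟨w, hw, hw0⟩ := H
  refine ⟨_, D.dn2.1 hw, fun h0 => hw0 (funext fun a => funext fun c => ?_)⟩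
  have := congrFun (congrFun h0 (1 - a)) c
  simpa using this

theorem PDat.ex3 {i j l : ℕ} (H : Ex3 P ρ (i + 4) j l) : Ex3 P ρ i j l := by
  obtain ⟨w, hw, hw0⟩ := H
  refine ⟨_, D.dn3.1 hw, fun h0 => hw0 (funext fun a => funext fun c => funext fun e => ?_)⟩
  have := congrFun (congrFun (congrFun h0 (1 - a)) c) e
  simpa using this

end

theorem Ex2.swap {i j : ℕ} (H : Ex2 P ρ i j) : Ex2 P ρ j i := by
  obtain ⟨w, hw, hw0⟩ := H
  exact ⟨_, hw.swap, fun h0 => hw0 (funext fun a => funext fun c => congrFun (congrFun h0 c) a)⟩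

theorem Ex3.rot {i j l : ℕ} (H : Ex3 P ρ i j l) : Ex3 P ρ l i j := by
  obtain ⟨w, hw, hw0⟩ := H
  exact ⟨_, hw.rot, fun h0 => hw0 (funext fun a => funext fun c => funext fun e => congrFun (congrFun (congrFun h0 e) a) c)⟩

theorem Ex3.swap {i j l : ℕ} (H : Ex3 P ρ i j l) : Ex3 P ρ j i l := by
  obtain ⟨w, hw, hw0⟩ := H
  exact ⟨_, hw.swap, fun h0 => hw0 (funext fun a => funext fun c => funext fun e => congrFun (congrFun (congrFun h0 c) a) e)⟩

/-! ### the four normalised types -/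

section

variable {Θ : V → V} (h : FrM ρ Θ) (D : PDat ι P y t0 ζ)
include h D

theorem norm1 {i : ℕ} (H : Ex1 P ρ i) : Ex1 P ρ 0 := by
  induction i using Nat.strong_induction_on with
  | _ i ih =>
    rcases lt_or_ge i 4 with hi | hi
    · interval_cases i
      · exact H
      · exact D.ex1 (h.up1 (h.up1 (h.up1 H)))
      · exact D.ex1 (h.up1 (h.up1 H))
      · exact D.ex1 (h.up1 H)
    · obtain ⟨j, rfl⟩ := Nat.exists_eq_add_of_le hi
      rw [add_comm] at H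
      exact ih j (by omega) (D.ex1 H)

theorem norm2 {i j : ℕ} (hij : i % 4 ≠ j % 4) (H : Ex2 P ρ i j) : Ex2 P ρ 0 1 ∨ Ex2 P ρ 0 2 := by
  obtain ⟨n, hn⟩ : ∃ n, n = i + j := ⟨_, rfl⟩
  induction n using Nat.strong_induction_on generalizing i j with
  | _ n ih =>
    subst hn
    rcases lt_or_ge i 4 with hi | hi
    · rcases lt_or_ge j 4 with hj | hj
      · have key : ∀ i' j', i' < j' → j' < 4 → Ex2 P ρ i' j' → Ex2 P ρ 0 1 ∨ Ex2 P ρ 0 2 := by
          intro i' j' h1 h2 H'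
          interval_cases j' <;> interval_cases i'
          · exact Or.inl H'
          · exact Or.inr H'
          · exact Or.inl (D.ex2 (D.ex2 (h.up2 (h.up2 (h.up2 H')))).swap).swap
          · exact Or.inl (D.ex2 (h.up2 H').swap)
          · exact Or.inr (D.ex2 (D.ex2 (h.up2 (h.up2 (h.up2 H')))).swap).swap
          · exact Or.inl (D.ex2 (D.ex2 (h.up2 (h.up2 H'))).swap).swap
        rcases lt_trichotomy i j with h1 | h1 | h1
        · exact key i j h1 hj H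
        · omega
        · exact key j i h1 hi H.swap
      · obtain ⟨l, rfl⟩ := Nat.exists_eq_add_of_le hj
        rw [add_comm 4 l] at H
        exact ih (i + l) (by omega) (by omega) (D.ex2 H.swap).swap rfl
    · obtain ⟨l, rfl⟩ := Nat.exists_eq_add_of_le hi
      rw [add_comm 4 l] at H
      exact ih (l + j) (by omega) (by omega) (D.ex2 H) rfl

theorem norm3 {i j l : ℕ} (hij : i < j) (hjl : j < l) (hl : l < 4) (H : Ex3 P ρ i j l) : Ex3 P ρ 0 1 2 := by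
  have hc : (i = 0 ∧ j = 1 ∧ l = 2) ∨ (i = 0 ∧ j = 1 ∧ l = 3) ∨ (i = 0 ∧ j = 2 ∧ l = 3) ∨ (i = 1 ∧ j = 2 ∧ l = 3) := by
    omega
  rcases hc with ⟨rfl, rfl, rfl⟩ | ⟨rfl, rfl, rfl⟩ | ⟨rfl, rfl, rfl⟩ | ⟨rfl, rfl, rfl⟩
  · exact H
  · -- (0, 1, 3) → (1, 2, 4) → (4, 1, 2) → (0, 1, 2)
    exact D.ex3 (h.up3 H).rot
  · -- (0, 2, 3) → (2, 4, 5) → (4, 5, 2) → (0, 5, 2) → (5, 2, 0) → (1, 2, 0)
    have h1 := D.ex3 (h.up3 (h.up3 H)).rot.rot
    have h2 := D.ex3 h1.rot.rot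
    exact h2.rot
  · -- (1, 2, 3) → (4, 5, 6)
    have h1 := D.ex3 (h.up3 (h.up3 (h.up3 H)))
    have h2 := D.ex3 h1.rot.rot
    have h3 := D.ex3 h2.rot.rot
    exact h3.rot.rot

/-- **the four cases** -/
theorem four_cases [DecidableEq F] (H : HasFam P ρ ⊤) :
    Ex1 P ρ 0 ∨ ((∀ i w, Fam1 P ρ i w → w = 0) ∧ Ex2 P ρ 0 1) ∨ ((∀ i w, Fam1 P ρ i w → w = 0) ∧ Ex2 P ρ 0 2) ∨
      ((∀ i w, Fam1 P ρ i w → w = 0) ∧ (∀ i j w, i % 4 ≠ j % 4 → Fam2 P ρ i j w → w = 0) ∧ Ex3 P ρ 0 1 2) := by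
  by_cases h1 : Ex1 P ρ 0
  · exact Or.inl h1
  right
  have n1 : ∀ i w, Fam1 P ρ i w → w = 0 := by
    intro i w hw
    by_contra h0
    exact h1 (norm1 h D ⟨w, hw, h0⟩)
  by_cases h2 : Ex2 P ρ 0 1
  · exact Or.inl ⟨n1, h2⟩
  by_cases h3 : Ex2 P ρ 0 2
  · exact Or.inr (Or.inl ⟨n1, h3⟩)
  have n2 : ∀ i j w, i % 4 ≠ j % 4 → Fam2 P ρ i j w → w = 0 := by
    intro i j w hij hw
    by_contra h0
    rcases norm2 h D hij ⟨w, hw, h0⟩ with h4 | h4
    · exact h2 h4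
    · exact h3 h4
  refine Or.inr (Or.inr ⟨n1, n2, ?_⟩)
  rcases H with ⟨i, hi, w, hw, hw0, -⟩ | ⟨i, j, hij, hj, w, hw, hw0, -⟩ | ⟨i, j, l, hij, hjl, hl, w, hw, hw0, -⟩
  · exact absurd (n1 i w hw) hw0
  · exact absurd (n2 i j w (by omega) hw) hw0
  · exact norm3 h D hij hjl hl ⟨w, hw, hw0⟩

end

end Cfsg.Agent.H280.L16
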